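import Cfsg.Agent.Lib.FieldPOm.Minus
import Cfsg.Agent.Lib.TriOutOdd
import Cfsg.Agent.Lib.AutOrthFam
import Cfsg.Agent.Lib.AutPSU.FieldCentU

/-!
# Field automorphisms of the plus-type groups
-/

set_option autoImplicit false
set_option linter.unusedSectionVars false
set_option linter.unusedSimpArgs false
set_option linter.unusedVariables false

namespace Cfsg.Agent.Lib.FieldPOm

open Module QuadraticMap Cfsg.Agent.Lib.OrthoBasic Cfsg.Agent.Lib.OrthoSiegel Cfsg.Agent.Lib.OrthoGen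
  Cfsg.Agent.Lib.OrthoFinal Cfsg.Agent.Lib.PgoPsi Cfsg.Agent.Lib.PgoGroup Cfsg.Agent.Lib.GammaCount
  Cfsg.Agent.Lib.Hilbert90 Cfsg.Agent.Lib.QuadFF Cfsg.Agent.Lib.QuadClass Cfsg.Agent.Lib.OrthoCount
  Cfsg.Agent.Lib.OrthoChar Cfsg.Agent.Lib.OrthoIndex Cfsg.Agent.Lib.AutPOm Cfsg.Agent.Lib.PgoParity
  Cfsg.Agent.Lib.OrthoOrder Cfsg.Agent.Lib.PgoClass Cfsg.Agent.Lib.AutOrthOut Cfsg.Agent.Lib.PgoSim
  Cfsg.Agent.Lib.PgoSim.Data Cfsg.Agent.Lib.PgoGraphInv Cfsg.Agent.Lib.PgoInndiag Cfsg.Agent.Lib.AutOrth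
  Cfsg.Agent.Lib.PgoFamilies
open Cfsg Matrix

universe u v

section stable

variable {F : Type u} [Field F] [Fintype F]

lemma conj_Inn {X : Type*} [Group X] (φ k : MulAut X) (hk : k ∈ Inn X) : φ * k * φ⁻¹ ∈ Inn X := by
  rw [Inn] at hk ⊢
  obtain ⟨t, rfl⟩ := hk
  refine ⟨φ t, ?_⟩
  ext y
  simp [MulAut.mul_def]

open Cfsg.Agent.Lib.TriAct Cfsg.Agent.Lib.Tri in
/-- Triality normalises the inner-diagonal group. -/
lemma tau_stable (D₀ : PgoSim.Data (quadFormPlus 4 F) (qPlus 4 F) 4) {y : MulAut (POmega F (quadFormPlus 4 F))}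
    (hy : y ∈ Cfsg.Agent.Lib.TriAct.Gd D₀) : tauP F * y * (tauP F)⁻¹ ∈ Cfsg.Agent.Lib.TriAct.Gd D₀ := by
  have hle : Inn (POmega F (quadFormPlus 4 F)) ≤ Cfsg.Agent.Lib.TriAct.Gd D₀ := Cfsg.Agent.Lib.PgoInndiag.Data.Inn_le D₀
  rw [← mem_map_piN_iff _ hle, map_mul, map_mul, map_inv]
  exact hTD_odd D₀ _ ⟨y, hy, rfl⟩

open Cfsg.Agent.Lib.TriAct Cfsg.Agent.Lib.Tri in
/-- All automorphisms of `PΩ⁺₈(q)` normalise the inner-diagonal group. -/
lemma four_stable (D₀ : PgoSim.Data (quadFormPlus 4 F) (qPlus 4 F) 4) (α : MulAut (POmega F (quadFormPlus 4 F)))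
    {y : MulAut (POmega F (quadFormPlus 4 F))}
    (hy : y ∈ Cfsg.Agent.Lib.TriAct.Gd D₀) : α * y * α⁻¹ ∈ Cfsg.Agent.Lib.TriAct.Gd D₀ := by
  set T := tauP F with hT
  have ht3 : T * (T * T) = 1 := by
    have := tauP_cube (F := F)
    rwa [pow_succ, pow_two, mul_assoc] at this
  have hinv : T⁻¹ = T * T := inv_eq_of_mul_eq_one_right ht3
  have hinv2 : (T * T)⁻¹ = T := by rw [← hinv, inv_inv]
  have h1 : ∀ z ∈ Cfsg.Agent.Lib.TriAct.Gd D₀, T * z * T⁻¹ ∈ Cfsg.Agent.Lib.TriAct.Gd D₀ := fun z hz => tau_stable D₀ hz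
  have h2 : ∀ z ∈ Cfsg.Agent.Lib.TriAct.Gd D₀, T⁻¹ * z * T ∈ Cfsg.Agent.Lib.TriAct.Gd D₀ := by
    intro z hz
    have h3 := h1 _ (h1 z hz)
    have e : T * (T * z * T⁻¹) * T⁻¹ = T⁻¹ * z * T := by
      have e1 : T * T * (T * T) = T := by
        calc T * T * (T * T) = (T * (T * T)) * T := by simp only [mul_assoc]
          _ = T := by rw [ht3, one_mul]
      rw [hinv]
      calc T * (T * z * (T * T)) * (T * T) = (T * T) * z * ((T * T) * (T * T)) := by simp only [mul_assoc]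
        _ = (T * T) * z * T := by rw [e1]
    rwa [e] at h3
  rcases aut_cosets α with h | h | h
  · exact Gd_conj_gamma D₀ h hy
  · have h3 := Gd_conj_gamma D₀ h (h2 y hy)
    have e : α * T * (T⁻¹ * y * T) * (α * T)⁻¹ = α * y * α⁻¹ := by group
    rwa [e] at h3
  · have h3 := Gd_conj_gamma D₀ h (h1 y hy)
    have e : α * T ^ 2 * (T * y * T⁻¹) * (α * T ^ 2)⁻¹ = α * y * α⁻¹ := by
      have e2 : T ^ 2 * T = 1 := by
        rw [pow_two, mul_assoc]
        exact ht3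
      have e3 : (α * T ^ 2)⁻¹ = T * α⁻¹ := by
        rw [_root_.mul_inv_rev, inv_eq_of_mul_eq_one_right e2]
      rw [e3]
      calc α * T ^ 2 * (T * y * T⁻¹) * (T * α⁻¹) = α * (T ^ 2 * T) * y * α⁻¹ := by group
        _ = _ := by rw [e2, mul_one]
    rwa [e] at h3

/-- All automorphisms normalise the inner-diagonal group of the plus form. -/
theorem plus_stable {m : ℕ} (hm : 4 ≤ m) (α : MulAut (POmega F (quadFormPlus m F)))
    {y : MulAut (POmega F (quadFormPlus m F))} (hy : y ∈ inndiagPOmegaPlus m F) :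
    α * y * α⁻¹ ∈ inndiagPOmegaPlus m F := by
  obtain ⟨n, rfl⟩ : ∃ n, m = n + 3 := ⟨m - 3, by omega⟩
  rcases Nat.even_or_odd (Fintype.card F) with h2 | hodd
  · rw [inndiag_plus_two h2 n] at hy ⊢
    exact conj_Inn _ _ hy
  · obtain ⟨D, -⟩ := exists_data_plus (F := F) hodd n
    rw [inndiag_plus n D] at hy ⊢
    rcases Nat.lt_or_ge n 2 with hn | hn
    · have hn1 : n = 1 := by omega
      subst hn1
      exact four_stable D α hy
    · have hα : α ∈ gammaPOmega F (quadFormPlus (n + 3) F) := by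
        rw [plus_top (by omega)]
        exact Subgroup.mem_top _
      exact Gd_conj_gamma D hα hy

theorem plus_stable_iff {m : ℕ} (hm : 4 ≤ m) (α : MulAut (POmega F (quadFormPlus m F)))
    (y : MulAut (POmega F (quadFormPlus m F))) :
    y ∈ inndiagPOmegaPlus m F ↔ α * y * α⁻¹ ∈ inndiagPOmegaPlus m F := by
  refine ⟨plus_stable hm α, fun h => ?_⟩
  have h1 := plus_stable hm α⁻¹ h
  have e : α⁻¹ * (α * y * α⁻¹) * α⁻¹⁻¹ = y := by group
  rwa [e] at h1

theorem inn_stable_iff {X : Type*} [Group X] (α y : MulAut X) :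
    y ∈ Inn X ↔ α * y * α⁻¹ ∈ Inn X := by
  refine ⟨conj_Inn α y, fun h => ?_⟩
  have h1 := conj_Inn α⁻¹ _ h
  have e : α⁻¹ * (α * y * α⁻¹) * α⁻¹⁻¹ = y := by group
  rwa [e] at h1

end stable

section count

lemma mem_of_mul_inv {X : Type*} [Group X] (K : Subgroup X) {c y : X} (h : c * y⁻¹ ∈ K) (hy : y ∈ K) : c ∈ K := by
  simpa using K.mul_mem h hy

variable {F₀ : Type v} {F : Type u} [Field F₀] [Field F] [Fintype F₀] [Fintype F]

/-- The similarity `hPlus` in the conformal group. -/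
noncomputable def hCP {K : Type*} [Field K] [Fintype K] (n : ℕ) (ν : Kˣ) : CO (quadFormPlus (n + 3) K) :=
  ⟨hPlus (n + 3) ν, ν, hPlus_spec (n + 3) ν⟩

lemma hCP_coe {K : Type*} [Field K] [Fintype K] (n : ℕ) (ν : Kˣ) : ((hCP n ν : CO (quadFormPlus (n + 3) K)) : GL (Fin (n + 3) ⊕ Fin (n + 3)) K) = hPlus (n + 3) ν := rfl

lemma multC_hCP {n : ℕ} (D : PgoSim.Data (quadFormPlus (n + 3) F) (qPlus (n + 3) F) (n + 3)) (ν : Fˣ) :
    D.multC (hCP n ν) = ν := D.multC_eq (hPlus_spec _ ν)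

lemma delta_hCP {n : ℕ} (D : PgoSim.Data (quadFormPlus (n + 3) F) (qPlus (n + 3) F) (n + 3)) (ν : Fˣ) :
    D.delta (hCP n ν) = 1 := by
  rw [delta_apply, multC_hCP, detC_apply, hCP_coe, hPlus_det]
  simp

lemma hCP_mul {K : Type*} [Field K] [Fintype K] (n : ℕ) (a b : Kˣ) : hCP n (a * b) = hCP n a * hCP n b := by
  apply Subtype.ext
  apply Units.ext
  change ((hPlus (n + 3) (a * b) : GL _ K) : Matrix _ _ K) = (hPlus (n + 3) a : GL _ K).1 * (hPlus (n + 3) b : GL _ K).1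
  rw [hPlus_val, hPlus_val, hPlus_val, Matrix.diagonal_mul_diagonal]
  congr 1
  funext x
  rcases x with x | x <;> simp

variable {j : F₀ →+* F} {σ : F ≃+* F}

lemma mapB_hCP {n : ℕ} (B : BC j σ (quadFormPlus (n + 3) F₀) (quadFormPlus (n + 3) F) (qPlus (n + 3) F₀) (qPlus (n + 3) F)) (ν : F₀ˣ) :
    mapB B (hCP n ν) = hCP n (Units.map (j : F₀ →* F) ν) := by
  apply Subtype.ext
  apply Units.ext
  rw [mapB_coe, hCP_coe, hCP_coe]
  change ((hPlus (n + 3) ν : GL _ F₀) : Matrix (Fin (n + 3) ⊕ Fin (n + 3)) (Fin (n + 3) ⊕ Fin (n + 3)) F₀).map j = ((hPlus (n + 3) (Units.map (j : F₀ →* F) ν) : GL _ F) : Matrix (Fin (n + 3) ⊕ Fin (n + 3)) (Fin (n + 3) ⊕ Fin (n + 3)) F)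
  rw [hPlus_val, hPlus_val]
  ext x y
  rw [Matrix.map_apply]
  by_cases hxy : x = y
  · subst hxy
    rcases x with x | x <;> simp
  · simp [Matrix.diagonal_apply_ne _ hxy]

section rat

variable {ι : Type} [Fintype ι] [DecidableEq ι] {f₀ : (ι → F₀) → F₀} {f : (ι → F) → F}
  {q₀ : QuadraticForm F₀ (ι → F₀)} {q : QuadraticForm F (ι → F)} {n : ℕ}

/-- Rational similarities with a square multiplier are inner when all rational values are squares. -/
lemma inn_of_rat_sq (D₀ : PgoSim.Data f₀ q₀ n) (D : PgoSim.Data f q n) (B : BC j σ f₀ f q₀ q)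
    (hsq : ∀ c : F₀, c ≠ 0 → IsSquare (j c)) (u₀ : CO f₀) (hδ : D₀.delta u₀ = 1) (hs : IsSquare (D₀.multC u₀)) :
    psiO f (mapB B u₀) ∈ Inn (POmega F f) := by
  obtain ⟨k, a, rfl⟩ := D₀.decomp u₀ hs
  have hda : Matrix.GeneralLinearGroup.det (a : GL ι F₀) = 1 := by
    rw [map_mul, delta_scalC, one_mul, delta_isoC] at hδ
    exact hδ
  have hiso := mem_iso_glJ B.comp D₀.hf D.hf a
  set b : isometryGroup F f := ⟨_, hiso⟩ with hb
  have hbm : mapB B (isoC a) = isoC b := Subtype.ext rfl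
  have hδb : D.delta (isoC b) = 1 := by
    rw [← hbm, delta_mapB_iff D₀ D B, delta_isoC]
    exact hda
  have hdb : Matrix.GeneralLinearGroup.det (b : GL ι F) = 1 := by
    rw [delta_isoC] at hδb
    exact hδb
  have hscal : psiO f (mapB B (D₀.scalC k)) = 1 := by
    obtain ⟨l, hl⟩ : ∃ l : Fˣ, ((mapB B (D₀.scalC k) : CO f) : GL ι F) = scalGL (ι := ι) l := by
      refine ⟨Units.map (j : F₀ →* F) k, ?_⟩
      apply Units.ext
      rw [mapB_coe, scalC_coe]
      change ((scalGL k : GL ι F₀) : Matrix ι ι F₀).map j = _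
      ext x y
      simp [scalGL, Matrix.map_apply, Matrix.scalar_apply, Matrix.diagonal_apply, apply_ite j]
    have : mapB B (D₀.scalC k) = D.scalC l := Subtype.ext hl
    rw [this, D.psiO_scalC]
  have hchi : chi q (D.toOG b) = 1 := by
    have h1 := extO_isoOG B.comp D₀.hf D.hf a hiso
    change chi q (isoOG f q D.hf _) = 1
    rw [← h1]
    refine chi_ext_of_sq D₀.hodd B.comp D₀.hQ D₀.hgen D₀.fr D.hQ D.fr hsq _ ?_
    have h2 := D₀.detO_toOG a
    rw [hda] at h2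
    exact h2
  rw [map_mul, map_mul, hscal, one_mul, hbm, Inn_eq]
  exact ⟨_, isoC_mem_omegaC (D.omega_of_chi hdb hchi), rfl⟩

end rat

/-- The square of a non-square multiplier. -/
lemma y_nonsq {n : ℕ} (D : PgoSim.Data (quadFormPlus (n + 3) F) (qPlus (n + 3) F) (n + 3))
    (hneg : negEl (qPlus (n + 3) F) ∈ siegelE (qPlus (n + 3) F)) {μ : Fˣ} (hμ : ¬ IsSquare (μ : F)) :
    psiO _ (hCP n (μ * μ)) ∈ Inn (POmega F (quadFormPlus (n + 3) F)) ↔ Even (n + 3) := by
  set e : CO (quadFormPlus (n + 3) F) := D.scalC μ⁻¹ * hCP n (μ * μ) with he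
  have he1 : D.multC e = 1 := by
    rw [he, map_mul, multC_scalC, multC_hCP]
    simp
  let a : isometryGroup F (quadFormPlus (n + 3) F) := ⟨e, D.mem_isometry_of_mult _ he1⟩
  have hia : isoC a = e := rfl
  have heq : hCP n (μ * μ) = D.scalC μ * isoC a := by
    rw [hia, he]
    apply Subtype.ext
    change _ = scalGL μ * (scalGL μ⁻¹ * (hPlus (n + 3) (μ * μ)))
    rw [← mul_assoc, ← scalGL_mul, mul_inv_cancel, scalGL_one, one_mul]
    rfl
  have hpsi : psiO _ (hCP n (μ * μ)) = psiO _ (isoC a) := by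
    rw [heq, map_mul, D.psiO_scalC, one_mul]
  have hda : Matrix.GeneralLinearGroup.det (a : GL (Fin (n + 3) ⊕ Fin (n + 3)) F) = 1 := by
    have h1 := delta_hCP D (μ * μ)
    rw [heq, map_mul, delta_scalC, one_mul, delta_isoC] at h1
    exact h1
  obtain ⟨fr⟩ := framePlus (F := F) n
  obtain ⟨t, ht1, ht2⟩ := exists_torus_prod (J := Fin (n + 3)) D.hodd (nondeg_qPlus (n + 3)) (genR_qPlus (n + 3)) fr hμ
    (a := Sum.inl) (b := Sum.inr) (fun i => by simp)
    (fun i => ⟨by rw [qPlus_apply]; simp [quadFormPlus], by rw [qPlus_apply]; simp [quadFormPlus],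
      by rw [Cfsg.Agent.Lib.PgoClass.polar_qPlus]; simp [Pi.single_apply]⟩)
    (fun i v => by rw [Cfsg.Agent.Lib.PgoClass.polar_qPlus]; simp [Pi.single_apply])
    (fun i v => by rw [Cfsg.Agent.Lib.PgoClass.polar_qPlus]; simp [Pi.single_apply]) Finset.univ
  have hEq : D.toOG a = t := by
    apply OG_ext
    intro v
    funext x
    rw [ht2]
    change (((scalGL μ⁻¹ * hPlus (n + 3) (μ * μ) : GL _ F)) : Matrix _ _ F).mulVec v x = _
    rw [Units.val_mul, ← Matrix.mulVec_mulVec, scalGL_apply, hPlus_val]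
    have hν0 := μ.ne_zero
    rcases x with j | j
    · simp only [Matrix.mulVec_diagonal, Sum.elim_inl, Pi.smul_apply, smul_eq_mul, dPair, Sum.inl.injEq, reduceCtorEq,
        if_false, Units.val_inv_eq_inv_val, Units.val_mul]
      rw [Finset.prod_ite_eq]
      simp
      field_simp
    · simp only [Matrix.mulVec_diagonal, Sum.elim_inr, Pi.smul_apply, smul_eq_mul, dPair, Sum.inr.injEq, reduceCtorEq,
        if_false, Units.val_inv_eq_inv_val, one_mul, Units.val_mul]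
      rw [Finset.prod_ite_eq]
      simp
  rw [hpsi, D.inn_iff_chi hneg a hda, hEq, ht1, Finset.card_univ, Fintype.card_fin]
  constructor
  · intro h
    by_contra hne
    rw [Nat.not_even_iff_odd] at hne
    rw [hne.neg_one_pow] at h
    exact absurd h (by decide)
  · intro h
    exact h.neg_one_pow

/-- The fourth power of any multiplier. -/
lemma y_fourth {n : ℕ} (D : PgoSim.Data (quadFormPlus (n + 3) F) (qPlus (n + 3) F) (n + 3))
    (hneg : negEl (qPlus (n + 3) F) ∈ siegelE (qPlus (n + 3) F)) (κ : Fˣ) :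
    psiO _ (hCP n (κ ^ 4)) ∈ Inn (POmega F (quadFormPlus (n + 3) F)) := by
  have h4 : ((Inn (POmega F (quadFormPlus (n + 3) F))).subgroupOf (Gd D)).index = 4 := Data.relIndex_Gd D (D.relIndex_two hneg)
  haveI := normal_of_comm (hcomm_Gd D)
  have h1 := Subgroup.pow_index_mem ((Inn (POmega F (quadFormPlus (n + 3) F))).subgroupOf (Gd D))
    (⟨psiO _ (hCP n κ), hCP n κ, delta_hCP D κ, rfl⟩ : Gd D)
  rw [h4, Subgroup.mem_subgroupOf] at h1
  have e : psiO _ (hCP n (κ ^ 4)) = (psiO _ (hCP n κ)) ^ 4 := by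
    rw [← map_pow]
    congr 1
    simp only [pow_succ, pow_zero, one_mul, hCP_mul]
  rw [e]
  exact h1

/-- A square root of a rational non-square. -/
lemma sq_root_iff (j : F₀ →+* F) (hodd₀ : Odd (Fintype.card F₀)) (hcard : Fintype.card F = Fintype.card F₀ ^ 2)
    {ν₀ : F₀} (hν₀ : ν₀ ≠ 0) (hns : ¬ IsSquare ν₀) {μ : F} (hμ : μ * μ = j ν₀) :
    IsSquare μ ↔ Fintype.card F₀ % 4 = 3 := by
  have hF : ringChar F ≠ 2 := by
    intro h
    have h1 := FiniteField.even_card_iff_char_two.1 h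
    rw [hcard] at h1
    have h2 : Odd (Fintype.card F₀ ^ 2) := hodd₀.pow
    rw [Nat.odd_iff] at h2
    omega
  have hF₀ : ringChar F₀ ≠ 2 := by
    intro h
    have h1 := FiniteField.even_card_iff_char_two.1 h
    rw [Nat.odd_iff] at hodd₀
    omega
  have hμ0 : μ ≠ 0 := by
    rintro rfl
    rw [mul_zero] at hμ
    exact hν₀ ((map_eq_zero j).1 hμ.symm)
  rw [FiniteField.isSquare_iff hF hμ0, hcard]
  obtain ⟨k, hk⟩ := hodd₀
  have e : (Fintype.card F₀) ^ 2 / 2 = 2 * k * (k + 1) := by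
    rw [hk]
    have : (2 * k + 1) ^ 2 = 2 * (2 * k * (k + 1)) + 1 := by ring
    rw [this]
    omega
  have hk2 : Fintype.card F₀ / 2 = k := by omega
  have hν : ν₀ ^ k = -1 := by
    rcases FiniteField.pow_dichotomy hF₀ hν₀ with h | h
    · exfalso
      apply hns
      rw [FiniteField.isSquare_iff hF₀ hν₀]
      exact h
    · rw [hk2] at h
      exact h
  have e2 : μ ^ (2 * k * (k + 1)) = (-1 : F) ^ (k + 1) := by
    rw [pow_mul, pow_mul, pow_two, hμ, ← map_pow, hν]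
    simp
  rw [e, e2]
  have hne : (-1 : F) ≠ 1 := Ring.neg_one_ne_one_of_char_ne_two hF
  constructor
  · intro h
    by_contra hne4
    have hk' : Odd (k + 1) := by
      rw [Nat.odd_iff]
      omega
    rw [hk'.neg_one_pow] at h
    exact hne h
  · intro h
    have hk' : Even (k + 1) := by
      rw [Nat.even_iff]
      omega
    exact hk'.neg_one_pow

variable {n : ℕ} (D₀ : PgoSim.Data (quadFormPlus (n + 3) F₀) (qPlus (n + 3) F₀) (n + 3))
  (D : PgoSim.Data (quadFormPlus (n + 3) F) (qPlus (n + 3) F) (n + 3))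
  (B : BC j σ (quadFormPlus (n + 3) F₀) (quadFormPlus (n + 3) F) (qPlus (n + 3) F₀) (qPlus (n + 3) F))

/-- The elements commuting with the field automorphism, modulo `Inn`. -/
lemma cases_comm (hσ : SInv (quadFormPlus (n + 3) F) σ) {r : ℕ} (hr : 0 < r) (hord : orderOf σ = r)
    (hsq : ∀ c : F₀, c ≠ 0 → IsSquare (j c)) (g : CO (quadFormPlus (n + 3) F)) (hg : D.delta g = 1)
    (hc : Commute (psiO _ g) (fa1 hσ)) :
    psiO _ g ∈ Inn (POmega F (quadFormPlus (n + 3) F)) ∨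
      psiO _ g * (psiO _ (mapB B (hCP n D₀.ν)))⁻¹ ∈ Inn (POmega F (quadFormPlus (n + 3) F)) := by
  obtain ⟨d, u₀, hk⟩ := exists_rat B hσ hr hord g hc
  have hδ₀ : D₀.delta u₀ = 1 := by
    rw [← delta_mapB_iff D₀ D B, hk, scO_eq D₀ D B, map_mul, delta_scalC, one_mul]
    exact hg
  have hp : psiO _ (mapB B u₀) = psiO _ g := by
    rw [hk, map_mul, scO_eq D₀ D B, D.psiO_scalC, one_mul]
  by_cases hs : IsSquare (D₀.multC u₀)
  · left
    rw [← hp]
    exact inn_of_rat_sq D₀ D B hsq u₀ hδ₀ hs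
  · right
    have h1 := inn_of_rat_sq D₀ D B hsq (u₀ * (hCP n D₀.ν)⁻¹) (by
      rw [map_mul, map_inv, hδ₀, delta_hCP]
      simp) (by
      rw [map_mul, map_inv, multC_hCP]
      apply isSquare_mul_of_not _ _ hs
      rw [isSquare_inv]
      intro h
      apply D₀.ν_not_square
      obtain ⟨c, hc⟩ := h
      exact ⟨c, by simpa using congrArg Units.val hc⟩)
    rw [map_mul, map_mul, map_inv, map_inv, hp] at h1
    exact h1

set_option maxHeartbeats 1000000 in
include D₀ B in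
/-- The count for an involutory field automorphism. -/
theorem count_two_plus (hσ : SInv (quadFormPlus (n + 3) F) σ) (hord : orderOf σ = 2)
    (hcard : Fintype.card F = Fintype.card F₀ ^ 2) :
    ((Odd (n + 3) ∧ Fintype.card F₀ % 4 = 1) →
      splitClassCount (D.delta.ker.map (psiO (quadFormPlus (n + 3) F))) (Inn (POmega F (quadFormPlus (n + 3) F))) (fa1 hσ) = 2) ∧
    (¬ (Odd (n + 3) ∧ Fintype.card F₀ % 4 = 1) →
      splitClassCount (D.delta.ker.map (psiO (quadFormPlus (n + 3) F))) (Inn (POmega F (quadFormPlus (n + 3) F))) (fa1 hσ) = 4) := by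
  have hodd₀ := D₀.hodd
  have hsq : ∀ c : F₀, c ≠ 0 → IsSquare (j c) := fun c hc => isSquare_j_of_two j hodd₀ hcard hc
  have hq : Fintype.card F % 4 = 1 := by
    rw [hcard]
    obtain ⟨k, hk⟩ := hodd₀
    rw [hk]
    have : (2 * k + 1) ^ 2 = 4 * (k * k + k) + 1 := by ring
    rw [this]
    omega
  have hneg : negEl (qPlus (n + 3) F) ∈ siegelE (qPlus (n + 3) F) := (neg_plus (F := F) D.hodd n).2 (by
    rintro ⟨-, h⟩
    omega)
  have h4 : ((Inn (POmega F (quadFormPlus (n + 3) F))).subgroupOf (Gd D)).index = 4 := Data.relIndex_Gd D (D.relIndex_two hneg)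
  set y := psiO _ (mapB B (hCP n D₀.ν)) with hy
  have hyG : y ∈ Gd D := ⟨_, (delta_mapB_iff D₀ D B _).2 (delta_hCP D₀ _), rfl⟩
  have hcomm : Commute y (fa1 hσ) := commute_mapB B hσ _
  have hcases : ∀ c : Gd D, Commute (c : MulAut (POmega F (quadFormPlus (n + 3) F))) (fa1 hσ) →
      (c : MulAut (POmega F (quadFormPlus (n + 3) F))) ∈ Inn (POmega F (quadFormPlus (n + 3) F)) ∨
      (c : MulAut (POmega F (quadFormPlus (n + 3) F))) * y⁻¹ ∈ Inn (POmega F (quadFormPlus (n + 3) F)) := by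
    rintro ⟨_, g, hg, rfl⟩ hc
    exact cases_comm D₀ D B hσ (by omega) hord hsq g hg hc
  -- the square root
  obtain ⟨μ₀, hμ₀⟩ := hsq _ D₀.ν.ne_zero
  have hμ0 : μ₀ ≠ 0 := by
    rintro rfl
    rw [mul_zero] at hμ₀
    exact D₀.ν.ne_zero ((map_eq_zero j).1 hμ₀)
  set μ : Fˣ := Units.mk0 μ₀ hμ0 with hμdef
  have hUμ : Units.map (j : F₀ →* F) D₀.ν = μ * μ := by
    apply Units.ext
    simpa [hμdef] using hμ₀
  have hyμ : y = psiO _ (hCP n (μ * μ)) := by
    rw [hy, mapB_hCP, hUμ]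
  have hiff := sq_root_iff j hodd₀ hcard D₀.ν.ne_zero D₀.ν_not_square (μ := μ₀) hμ₀.symm
  have hyInn : y ∈ Inn (POmega F (quadFormPlus (n + 3) F)) ↔ ¬ (Odd (n + 3) ∧ Fintype.card F₀ % 4 = 1) := by
    by_cases hs : IsSquare μ₀
    · have h3 := hiff.1 hs
      have hy4 : y ∈ Inn (POmega F (quadFormPlus (n + 3) F)) := by
        obtain ⟨κ₀, hκ₀⟩ := hs
        have hκ0 : κ₀ ≠ 0 := by
          rintro rfl
          rw [mul_zero] at hκ₀
          exact hμ0 hκ₀
        have e : μ * μ = (Units.mk0 κ₀ hκ0) ^ 4 := by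
          apply Units.ext
          simp [hμdef, hκ₀]
          ring
        rw [hyμ, e]
        exact y_fourth D hneg _
      constructor
      · intro _
        rintro ⟨-, h⟩
        omega
      · intro _
        exact hy4
    · have h3 : Fintype.card F₀ % 4 = 1 := by
        have h5 : Fintype.card F₀ % 4 ≠ 3 := fun h => hs (hiff.2 h)
        obtain ⟨k, hk⟩ := hodd₀
        omega
      rw [hyμ, y_nonsq D hneg (by simpa [hμdef] using hs)]
      rw [← Nat.not_odd_iff_even]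
      constructor
      · rintro h ⟨h', -⟩
        exact h h'
      · intro h h'
        exact h ⟨h', h3⟩
  constructor
  · rintro ⟨hm, h1⟩
    have hyn : y ∉ Inn (POmega F (quadFormPlus (n + 3) F)) := fun h => hyInn.1 h ⟨hm, h1⟩
    refine count_of_four _ _ (Data.Inn_le D) (hcomm_Gd D) _ h4 ⟨⟨y, hyG⟩, hcomm, hyn⟩ ?_
    refine ⟨⟨psiO _ D.hC, D.hC, D.delta_hC, rfl⟩, ?_⟩
    rintro ⟨k, c, hk, hc, he⟩
    have he' : psiO _ D.hC = (k : MulAut (POmega F (quadFormPlus (n + 3) F))) * c := congrArg Subtype.val he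
    rcases hcases c hc with h | h
    · refine Cfsg.Agent.Lib.PgoInndiag.Data.not_inn_of_nonsq D D.hC (by rw [multC_hC]; exact D.hν) ?_
      rw [he']
      exact mul_mem hk h
    · have h2 : psiO _ D.hC * y⁻¹ ∈ Inn (POmega F (quadFormPlus (n + 3) F)) := by
        rw [he', mul_assoc]
        exact mul_mem hk h
      rw [hy, ← map_inv, ← map_mul] at h2
      refine Cfsg.Agent.Lib.PgoInndiag.Data.not_inn_of_nonsq D _ ?_ h2
      rw [map_mul, map_inv, multC_hC, multC_mapB D₀ D B, multC_hCP]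
      intro hs
      apply D.hν
      obtain ⟨w, hw⟩ := hs
      refine ⟨w * μ, ?_⟩
      rw [hUμ] at hw
      have e5 : D.ν = (D.ν * (μ * μ)⁻¹) * (μ * μ) := by group
      rw [e5, hw]
      exact mul_mul_mul_comm w w μ μ
  · intro h1
    have hyi := hyInn.2 h1
    rw [← h4]
    apply count_of_le _ _ (Data.Inn_le D) (hcomm_Gd D)
    intro c hc
    rcases hcases c hc with h | h
    · exact h
    · exact mem_of_mul_inv _ h hyi

end count

set_option maxHeartbeats 4000000 in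
/-- The main theorem for the plus form. -/
theorem main_plus {F : Type u} [Field F] [Fintype F] {p f : ℕ} [Fact p.Prime] (hF : Fintype.card F = p ^ f) (hf : 1 ≤ f)
    {m : ℕ} (hm : 4 ≤ m) (x : MulAut (POmega F (quadFormPlus m F))) (hx : IsFieldAutClassPOmega (quadFormPlus m F) x)
    {r : ℕ} (hr : r.Prime) (hxr : orderOf x = r) (F₀ : Type v) [Field F₀] [Fintype F₀] (hF₀ : Fintype.card F₀ = p ^ (f / r)) :
    r ∣ f ∧ Nonempty (↥(inndiagPOmegaPlus m F ⊓ Subgroup.centralizer {x}) ≃* ↥(inndiagPOmegaPlus m F₀)) ∧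
      ((Odd r ∨ p = 2) → splitClassCount (inndiagPOmegaPlus m F) (Inn (POmega F (quadFormPlus m F))) x = 1) ∧
      ((r = 2 ∧ p ≠ 2 ∧ Odd m ∧ p ^ (f / 2) % 4 = 1) → splitClassCount (inndiagPOmegaPlus m F) (Inn (POmega F (quadFormPlus m F))) x = 2) ∧
      ((r = 2 ∧ p ≠ 2 ∧ ¬ (Odd m ∧ p ^ (f / 2) % 4 = 1)) → splitClassCount (inndiagPOmegaPlus m F) (Inn (POmega F (quadFormPlus m F))) x = 4) := by
  classical
  have hm' := hm
  obtain ⟨n, rfl⟩ : ∃ n, m = n + 3 := ⟨m - 3, by omega⟩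
  obtain ⟨α, φ, σ, hσ1, hφ, hαx⟩ := hx
  have hσ : SInv (quadFormPlus (n + 3) F) σ := by
    intro v
    simp only [quadFormPlus, sv, map_sum, map_mul]
  have S := sys_plus (F := F) n
  have hφ' : φ = fa1 hσ := (isFieldAut_iff1 hσ φ).1 hφ
  subst hφ'
  have hord : orderOf σ = r := by
    rw [← orderOf_fa1 hσ S, ← hαx, ← hxr]
    exact orderOf_injective (MulAut.conj α).toMonoidHom (MulAut.conj α).injective x
  obtain ⟨hrf, j, hfix, hran, hcard⟩ := exists_sub hF hf hr hord F₀ hF₀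
  refine ⟨hrf, ?_⟩
  have B : BC j σ (quadFormPlus (n + 3) F₀) (quadFormPlus (n + 3) F) (qPlus (n + 3) F₀) (qPlus (n + 3) F) := by
    refine ⟨⟨fun v => ?_⟩, sys_plus n, S, hfix, hran⟩
    rw [qPlus_apply, qPlus_apply]
    simp [quadFormPlus, mapV, map_sum]
  have hcount : splitClassCount (inndiagPOmegaPlus (n + 3) F) (Inn (POmega F (quadFormPlus (n + 3) F))) x =
      splitClassCount (inndiagPOmegaPlus (n + 3) F) (Inn (POmega F (quadFormPlus (n + 3) F))) (fa1 hσ) := by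
    rw [← hαx]
    exact (Cfsg.Agent.Lib.AutPSU.splitClassCount_conj' _ _ α (plus_stable_iff hm' α) (inn_stable_iff α) x).symm
  obtain ⟨e₁⟩ : Nonempty (↥(inndiagPOmegaPlus (n + 3) F ⊓ Subgroup.centralizer {x}) ≃*
      ↥(inndiagPOmegaPlus (n + 3) F ⊓ Subgroup.centralizer {(fa1 hσ : MulAut (POmega F (quadFormPlus (n + 3) F)))})) := by
    rw [← hαx]
    exact Cfsg.Agent.Lib.AutPSU.centr_conj_equiv' _ α (plus_stable_iff hm' α) x
  rw [hcount]
  rcases Nat.even_or_odd (Fintype.card F) with h2 | hodd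
  · have h2₀ := (even_card_iff hr hcard).1 h2
    have hp2 : p = 2 := by
      rw [hF, Nat.even_pow] at h2
      exact (Fact.out : p.Prime).even_iff.1 h2.1
    rw [inndiag_plus_two h2 n] at e₁ ⊢
    rw [inndiag_plus_two h2₀ n]
    refine ⟨?_, fun _ => count_self _ _, fun h => absurd hp2 h.2.1, fun h => absurd hp2 h.2.1⟩
    obtain ⟨D, hD⟩ := exists_D_plus (F := F) n
    obtain ⟨e₂⟩ := cent_two h2₀ h2 B hσ hr.pos hord D hD
    exact ⟨e₁.trans e₂⟩
  · have hodd₀ : Odd (Fintype.card F₀) := by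
      rw [← Nat.not_even_iff_odd, ← even_card_iff hr hcard, Nat.not_even_iff_odd]
      exact hodd
    have hp2 : p ≠ 2 := by
      rintro rfl
      rw [hF, Nat.odd_pow_iff (by omega)] at hodd
      exact absurd hodd (by decide)
    obtain ⟨D, -⟩ := exists_data_plus (F := F) hodd n
    obtain ⟨D₀, -⟩ := exists_data_plus (F := F₀) hodd₀ n
    rw [inndiag_plus n D] at e₁ ⊢
    rw [inndiag_plus n D₀]
    refine ⟨?_, ?_, ?_, ?_⟩
    · obtain ⟨e₂⟩ := cent_Gd D₀ D B hσ hr.pos hord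
      exact ⟨e₁.trans e₂⟩
    · rintro (hr2 | hp)
      · refine count_of_ns D₀ D B hσ ?_
        intro ν hν0 hν
        exact not_isSquare_j_of_odd j hodd₀ hr2 hcard hν0 hν
      · exact absurd hp hp2
    · rintro ⟨rfl, -, hm1, h1⟩
      rw [← hF₀] at h1
      exact (count_two_plus D₀ D B hσ hord hcard).1 ⟨hm1, h1⟩
    · rintro ⟨rfl, -, h1⟩
      rw [← hF₀] at h1
      exact (count_two_plus D₀ D B hσ hord hcard).2 h1

end Cfsg.Agent.Lib.FieldPOm
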