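import Cfsg.Agent.Lib.FieldPOm.Trans

/-!
# Centralisers and class counts for the field automorphism, in terms of the data
-/

set_option autoImplicit false
set_option linter.unusedSectionVars false
set_option linter.unusedSimpArgs false
set_option linter.unusedVariables false

namespace Cfsg.Agent.Lib.FieldPOm

open Module QuadraticMap Cfsg.Agent.Lib.OrthoBasic Cfsg.Agent.Lib.OrthoSiegel Cfsg.Agent.Lib.OrthoGen
  Cfsg.Agent.Lib.OrthoFinal Cfsg.Agent.Lib.PgoPsi Cfsg.Agent.Lib.PgoGroup Cfsg.Agent.Lib.GammaCount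
  Cfsg.Agent.Lib.Hilbert90 Cfsg.Agent.Lib.QuadFF Cfsg.Agent.Lib.QuadClass Cfsg.Agent.Lib.OrthoCount
  Cfsg.Agent.Lib.OrthoChar Cfsg.Agent.Lib.OrthoIndex Cfsg.Agent.Lib.AutPOm Cfsg.Agent.Lib.PgoParity
  Cfsg.Agent.Lib.OrthoOrder Cfsg.Agent.Lib.PgoClass Cfsg.Agent.Lib.AutOrthOut Cfsg.Agent.Lib.PgoSim
  Cfsg.Agent.Lib.PgoSim.Data Cfsg.Agent.Lib.PgoGraphInv
open Cfsg Matrix

variable {ι : Type} [Fintype ι] [DecidableEq ι] {F₀ F : Type*} [Field F₀] [Field F] [Fintype F₀] [Fintype F]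
  {j : F₀ →+* F} {σ : F ≃+* F} {f₀ : (ι → F₀) → F₀} {f : (ι → F) → F}
  {q₀ : QuadraticForm F₀ (ι → F₀)} {q : QuadraticForm F (ι → F)} {n : ℕ}

section compat

variable (D₀ : PgoSim.Data f₀ q₀ n) (D : PgoSim.Data f q n) (B : BC j σ f₀ f q₀ q)

include D₀ D B

lemma multC_mapB (g : CO f₀) : D.multC (mapB B g) = Units.map (j : F₀ →* F) (D₀.multC g) := by
  apply D.multC_eq
  intro w
  rw [B.S.hf, B.S.hf]
  exact sim_glJ B.comp (fun v => by rw [← D₀.hf, ← D₀.hf]; exact D₀.multC_spec g v) w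

lemma detC_mapB (g : CO f₀) : D.detC (mapB B g) = Units.map (j : F₀ →* F) (D₀.detC g) := by
  apply Units.ext
  exact det_glJ _

lemma delta_mapB (g : CO f₀) : D.delta (mapB B g) = Units.map (j : F₀ →* F) (D₀.delta g) := by
  rw [delta_apply, delta_apply, multC_mapB D₀ D B, detC_mapB D₀ D B, map_mul, map_inv, map_pow]

lemma delta_mapB_iff (g : CO f₀) : D.delta (mapB B g) = 1 ↔ D₀.delta g = 1 := by
  rw [delta_mapB D₀ D B]
  constructor
  · intro h
    apply Units.ext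
    apply j.injective
    have := congrArg Units.val h
    simpa using this
  · intro h
    rw [h, map_one]

lemma scO_eq (d : Fˣ) : scO B.S d = D.scalC d := Subtype.ext rfl

/-- The centraliser of the field automorphism in the inner-diagonal group. -/
theorem cent_Gd (hσ : SInv f σ) {r : ℕ} (hr : 0 < r) (hord : orderOf σ = r) :
    Nonempty (↥(D.delta.ker.map (psiO f) ⊓ Subgroup.centralizer {(fa1 hσ : MulAut (POmega F f))}) ≃*
      ↥(D₀.delta.ker.map (psiO f₀))) :=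
  cent_equiv1 B hσ hr hord _ _ (fun g => (delta_mapB_iff D₀ D B g).symm) (fun g d => by
    rw [scO_eq D₀ D B]
    change D.delta _ = 1 ↔ D.delta _ = 1
    rw [map_mul, delta_scalC, one_mul])

/-- A rational isometry with non-trivial character. -/
lemma exists_rat_chi (hν : ∃ ν : F₀, ν ≠ 0 ∧ ¬ IsSquare (j ν)) :
    ∃ t : isometryGroup F₀ f₀, Matrix.GeneralLinearGroup.det (t : GL ι F₀) = 1 ∧
      ∃ b : isometryGroup F f, (b : GL ι F) = glJ j (t : GL ι F₀) ∧ chi q (D.toOG b) = -1 := by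
  obtain ⟨ν, hν0, hν1⟩ := hν
  obtain ⟨a, ha1, ha2⟩ := exists_chi_neg D.hodd D₀.hodd B.comp D₀.hQ D.hgen D₀.fr D.hQ D.fr hν0 hν1
  refine ⟨D₀.toOG.symm a, ?_, ?_⟩
  · rw [← D₀.detO_toOG]
    simpa using ha1
  · have hiso := mem_iso_glJ B.comp D₀.hf D.hf (D₀.toOG.symm a)
    refine ⟨⟨_, hiso⟩, rfl, ?_⟩
    have h1 := extO_isoOG B.comp D₀.hf D.hf (D₀.toOG.symm a) hiso
    have h2 : isoOG f₀ q₀ D₀.hf (D₀.toOG.symm a) = a := D₀.toOG.apply_symm_apply a
    rw [h2] at h1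
    change chi q (isoOG f q D.hf _) = -1
    rw [← h1]
    exact ha2

/-- Every element of the inner-diagonal group is rational modulo `Inn`, when non-squares stay non-squares. -/
lemma exists_rat_decomp (hns : ∀ ν : F₀, ν ≠ 0 → ¬ IsSquare ν → ¬ IsSquare (j ν)) (g : CO f) (hg : D.delta g = 1) :
    ∃ u : CO f₀, D₀.delta u = 1 ∧ psiO f g * (psiO f (mapB B u))⁻¹ ∈ Inn (POmega F f) := by
  have hν₀ : ¬ IsSquare ((D₀.ν : F₀ˣ) : F₀) := D₀.ν_not_square
  have hjν := hns _ D₀.ν.ne_zero hν₀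
  -- the part with square multiplier
  obtain ⟨u₁, hu₁, hs⟩ : ∃ u₁ : CO f₀, D₀.delta u₁ = 1 ∧ IsSquare (D.multC (g * (mapB B u₁)⁻¹)) := by
    by_cases hsq : IsSquare (D.multC g)
    · refine ⟨1, map_one _, ?_⟩
      simpa using hsq
    · refine ⟨D₀.hC, D₀.delta_hC, ?_⟩
      rw [map_mul, map_inv, multC_mapB D₀ D B, D₀.multC_hC]
      apply isSquare_mul_of_not _ _ hsq
      rw [isSquare_inv]
      intro h
      apply hjν
      obtain ⟨c, hc⟩ := h
      exact ⟨c, by simpa using congrArg Units.val hc⟩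
  set g₁ := g * (mapB B u₁)⁻¹ with hg₁
  have hδ₁ : D.delta g₁ = 1 := by
    rw [hg₁, map_mul, map_inv, hg, (delta_mapB_iff D₀ D B u₁).2 hu₁]
    simp
  obtain ⟨l, a, hla⟩ := D.decomp g₁ hs
  have hda : Matrix.GeneralLinearGroup.det (a : GL ι F) = 1 := by
    rw [hla, map_mul, delta_scalC, one_mul, delta_isoC] at hδ₁
    exact hδ₁
  have hpg : psiO f g₁ = psiO f (isoC a) := by
    rw [hla, map_mul, D.psiO_scalC, one_mul]
  rcases Int.units_eq_one_or (chi q (D.toOG a)) with hc | hc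
  · refine ⟨u₁, hu₁, ?_⟩
    have h2 : psiO f g * (psiO f (mapB B u₁))⁻¹ = psiO f g₁ := by
      rw [hg₁, map_mul, map_inv]
    rw [h2, hpg, Inn_eq]
    exact ⟨_, isoC_mem_omegaC (D.omega_of_chi hda hc), rfl⟩
  · obtain ⟨t, ht1, b, hb1, hb2⟩ := exists_rat_chi D₀ D B ⟨D₀.ν, D₀.ν.ne_zero, hjν⟩
    have hbm : mapB B (isoC t) = isoC b := Subtype.ext hb1.symm
    refine ⟨isoC t * u₁, ?_, ?_⟩
    · rw [map_mul, hu₁, delta_isoC, ht1, one_mul]
    · have hdb : Matrix.GeneralLinearGroup.det (b : GL ι F) = 1 := by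
        have h3 := (delta_mapB_iff D₀ D B (isoC t)).2 (by rw [delta_isoC]; exact ht1)
        rw [hbm, delta_isoC] at h3
        exact h3
      have h4 : a * b⁻¹ ∈ Omega F f := by
        apply D.omega_of_chi
        · rw [Subgroup.coe_mul, map_mul, hda, Subgroup.coe_inv, map_inv, hdb]
          simp
        · rw [map_mul, map_mul, map_inv, map_inv, hc, hb2]
          decide
      have h5 : psiO f g * (psiO f (mapB B (isoC t * u₁)))⁻¹ = psiO f (isoC (a * b⁻¹)) := by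
        have e : isoC (a * b⁻¹) = isoC a * (isoC b)⁻¹ := Subtype.ext rfl
        rw [e, map_mul, map_mul, map_mul, map_inv, hbm, ← hpg, hg₁, map_mul, map_inv]
        group
      rw [h5, Inn_eq]
      exact ⟨_, isoC_mem_omegaC h4, rfl⟩

/-- When non-squares stay non-squares, the class is a single class for `Inn`. -/
theorem count_of_ns (hσ : SInv f σ) (hns : ∀ ν : F₀, ν ≠ 0 → ¬ IsSquare ν → ¬ IsSquare (j ν)) :
    splitClassCount (D.delta.ker.map (psiO f)) (Inn (POmega F f)) (fa1 hσ) = 1 := by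
  rw [count_eq_index (Gd D) (Inn (POmega F f)) (Cfsg.Agent.Lib.PgoInndiag.Data.Inn_le D) (hcomm_Gd D)]
  rw [Subgroup.index_eq_one, eq_top_iff]
  rintro ⟨_, g, hg, rfl⟩ -
  obtain ⟨u, hu, hk⟩ := exists_rat_decomp D₀ D B hns g hg
  rw [mem_supC (normal_of_comm (hcomm_Gd D))]
  refine ⟨⟨psiO f g * (psiO f (mapB B u))⁻¹, Cfsg.Agent.Lib.PgoInndiag.Data.Inn_le D hk⟩, ⟨psiO f (mapB B u), _, (delta_mapB_iff D₀ D B u).2 hu, rfl⟩, hk, ?_, ?_⟩
  · exact commute_mapB B hσ u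
  · apply Subtype.ext
    change psiO f g = psiO f g * (psiO f (mapB B u))⁻¹ * psiO f (mapB B u)
    group

end compat

end Cfsg.Agent.Lib.FieldPOm
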