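import Cfsg.Agent.Lib.FieldPOm.Count

/-!
# The two families of forms
-/

set_option autoImplicit false
set_option linter.unusedSectionVars false
set_option linter.unusedSimpArgs false
set_option linter.unusedVariables false

namespace Cfsg.Agent.Lib.FieldPOm

open Module QuadraticMap Cfsg.Agent.Lib.OrthoBasic Cfsg.Agent.Lib.OrthoSiegel Cfsg.Agent.Lib.OrthoGen
  Cfsg.Agent.Lib.OrthoFinal Cfsg.Agent.Lib.PgoPsi Cfsg.Agent.Lib.PgoGroup Cfsg.Agent.Lib.GammaCount
  Cfsg.Agent.Lib.Hilbert90 Cfsg.Agent.Lib.QuadFF Cfsg.Agent.Lib.QuadClass Cfsg.Agent.Lib.OrthoCount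
  Cfsg.Agent.Lib.OrthoChar Cfsg.Agent.Lib.OrthoIndex Cfsg.Agent.Lib.AutPOm Cfsg.Agent.Lib.PgoParity
  Cfsg.Agent.Lib.OrthoOrder Cfsg.Agent.Lib.PgoClass Cfsg.Agent.Lib.AutOrthOut Cfsg.Agent.Lib.PgoSim
  Cfsg.Agent.Lib.PgoSim.Data Cfsg.Agent.Lib.PgoGraphInv Cfsg.Agent.Lib.PgoInndiag Cfsg.Agent.Lib.AutOrth
open Cfsg Matrix

universe u v

section iso

variable {F : Type u} [Field F] [Fintype F]

/-- Two anisotropic binary parts give isometric forms. -/
lemma exists_iso_minus {a b a' b' : F} (hab : ∀ z₁ z₂ : F, z₁ ^ 2 + a * z₁ * z₂ + b * z₂ ^ 2 = 0 → z₁ = 0 ∧ z₂ = 0)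
    (hab' : ∀ z₁ z₂ : F, z₁ ^ 2 + a' * z₁ * z₂ + b' * z₂ ^ 2 = 0 → z₁ = 0 ∧ z₂ = 0) (m : ℕ) :
    ∃ e : (Ix m → F) ≃ₗ[F] (Ix m → F), ∀ v, quadFormMinus m F a' b' (e v) = quadFormMinus m F a b v := by
  have hV : finrank F (Ix m → F) = 2 * (m + 1) := by
    simp
    ring
  obtain ⟨e, he⟩ := iso_qMinus hV (qMinus m a b) (ND_qMinus a b hab m) (by
    rw [zeros_minus a b hab m]
    exact count_ne m) a' b' hab'
  refine ⟨e, fun v => ?_⟩
  have := he v
  rwa [qMinus_apply, qMinus_apply] at this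

/-- The inner-diagonal group in the two forms. -/
theorem inndiag_map_minus {a b a' b' : F} (hab : ∀ z₁ z₂ : F, z₁ ^ 2 + a * z₁ * z₂ + b * z₂ ^ 2 = 0 → z₁ = 0 ∧ z₂ = 0)
    (hab' : ∀ z₁ z₂ : F, z₁ ^ 2 + a' * z₁ * z₂ + b' * z₂ ^ 2 = 0 → z₁ = 0 ∧ z₂ = 0) {n : ℕ} (hn : 1 ≤ n)
    (ψ : POmega F (quadFormMinus (n + 2) F a b) ≃* POmega F (quadFormMinus (n + 2) F a' b')) :
    (inndiagPOmegaMinus (n + 2) F a b).map (MulAut.congr ψ).toMonoidHom = inndiagPOmegaMinus (n + 2) F a' b' := by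
  rcases Nat.even_or_odd (Fintype.card F) with h2 | hodd
  · rw [inndiag_minus_two h2 a b hab n, inndiag_minus_two h2 a' b' hab' n]
    exact Inn_map ψ
  · obtain ⟨D, -⟩ := exists_data_minus hodd a b hab n
    obtain ⟨D', -⟩ := exists_data_minus hodd a' b' hab' n
    obtain ⟨e, he⟩ := exists_iso_minus hab hab' (n + 2)
    rw [inndiag_minus a b hab n D, inndiag_minus a' b' hab' n D']
    exact Gd_map D D' he (minus_top (by omega) a b hab) ψ

end iso

section generic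

variable {X : Type*} [Group X]

/-- If the two groups agree there is one class. -/
lemma count_self (K : Subgroup X) (x : X) : splitClassCount K K x = 1 := by
  unfold splitClassCount
  rw [Nat.card_eq_one_iff_unique]
  refine ⟨⟨?_⟩, ⟨Quot.mk _ ⟨x, 1, one_mem _, by simp⟩⟩⟩
  intro a c
  induction a using Quot.ind with
  | mk y =>
    induction c using Quot.ind with
    | mk z =>
      apply Quot.sound
      obtain ⟨h, hh, hy⟩ := y.2
      obtain ⟨k, hk, hz⟩ := z.2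
      refine ⟨k * h⁻¹, K.mul_mem hk (K.inv_mem hh), ?_⟩
      rw [hz, hy]
      group

end generic

section fixed

variable {F : Type*} [Field F] [Fintype F]

/-- Over the fixed field of an automorphism of order two there is no anisotropic binary part. -/
lemma no_aniso_of_two {σ : F ≃+* F} (hord : orderOf σ = 2) {a b : F} (ha : σ a = a) (hb : σ b = b)
    (hab : ∀ z₁ z₂ : F, z₁ ^ 2 + a * z₁ * z₂ + b * z₂ ^ 2 = 0 → z₁ = 0 ∧ z₂ = 0) : False := by
  classical
  haveI : Fintype (fixedF σ) := Fintype.ofFinite _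
  have hc := card_eq_card_fixedF_pow σ hord
  have hfin : Module.finrank (fixedF σ) F = 2 := by
    have h3 := Module.card_eq_pow_finrank (K := fixedF σ) (V := F)
    rw [← Nat.card_eq_fintype_card, ← Nat.card_eq_fintype_card, hc] at h3
    have hgt : 1 < Nat.card (fixedF σ) := by
      rw [Nat.card_eq_fintype_card]
      exact Fintype.one_lt_card
    exact (Nat.pow_right_injective hgt).eq_iff.1 h3.symm
  obtain ⟨r, hr⟩ := exists_root_of_finrank hfin (⟨a, ha⟩ : fixedF σ) (⟨b, hb⟩ : fixedF σ) (by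
    intro z₁ z₂ h
    have h1 := congrArg (Subtype.val) h
    have h2 := hab z₁ z₂ (by simpa using h1)
    exact ⟨Subtype.ext h2.1, Subtype.ext h2.2⟩)
  have h3 := hab r 1 (by
    have : algebraMap (fixedF σ) F ⟨a, ha⟩ = a := rfl
    have h4 : algebraMap (fixedF σ) F ⟨b, hb⟩ = b := rfl
    rw [this, h4] at hr
    linear_combination hr)
  exact one_ne_zero h3.2

end fixed

end Cfsg.Agent.Lib.FieldPOm
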