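import Cfsg.Agent.Lib.FieldPOm.Fam

/-!
# Field automorphisms of the minus-type groups
-/

set_option autoImplicit false
set_option linter.unusedSectionVars false
set_option linter.unusedSimpArgs false
set_option linter.unusedVariables false

namespace Cfsg.Agent.Lib.FieldPOm

open Module QuadraticMap Cfsg.Agent.Lib.OrthoBasic Cfsg.Agent.Lib.OrthoSiegel Cfsg.Agent.Lib.OrthoGen
  Cfsg.Agent.Lib.OrthoFinal Cfsg.Agent.Lib.PgoPsi Cfsg.Agent.Lib.PgoGroup Cfsg.Agent.Lib.GammaCount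
  Cfsg.Agent.Lib.Hilbert90 Cfsg.Agent.Lib.QuadFF Cfsg.Agent.Lib.QuadClass Cfsg.Agent.Lib.OrthoCount
  Cfsg.Agent.Lib.OrthoChar Cfsg.Agent.Lib.OrthoIndex Cfsg.Agent.Lib.AutPOm Cfsg.Agent.Lib.PgoParity
  Cfsg.Agent.Lib.OrthoOrder Cfsg.Agent.Lib.PgoClass Cfsg.Agent.Lib.AutOrthOut Cfsg.Agent.Lib.PgoSim
  Cfsg.Agent.Lib.PgoSim.Data Cfsg.Agent.Lib.PgoGraphInv Cfsg.Agent.Lib.PgoInndiag Cfsg.Agent.Lib.AutOrth
open Cfsg Matrix

universe u v

/-- The subfield fixed by an automorphism of prime order, as the image of a given finite field. -/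
lemma exists_sub {F : Type u} [Field F] [Fintype F] {p f : ℕ} [Fact p.Prime] (hF : Fintype.card F = p ^ f) (hf : 1 ≤ f)
    {r : ℕ} (hr : r.Prime) {σ : F ≃+* F} (hord : orderOf σ = r) (F₀ : Type v) [Field F₀] [Fintype F₀]
    (hF₀ : Fintype.card F₀ = p ^ (f / r)) :
    r ∣ f ∧ ∃ j : F₀ →+* F, (∀ x, σ (j x) = j x) ∧ (∀ y, σ y = y → ∃ x, j x = y) ∧
      Fintype.card F = Fintype.card F₀ ^ r := by
  classical
  have hp : p.Prime := Fact.out
  have : Finite (F ≃+* F) := Finite.of_injective (fun e : F ≃+* F => (e : F → F)) DFunLike.coe_injective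
  have hrf : r ∣ f := by
    rw [← hord]
    have h1 := orderOf_dvd_natCard σ
    rwa [Cfsg.Agent.Lib.AutPSL.card_ringAut hF hf] at h1
  refine ⟨hrf, ?_⟩
  obtain ⟨k, rfl⟩ := hrf
  have hk : r * k / r = k := Nat.mul_div_cancel_left _ hr.pos
  rw [hk] at hF₀
  have hfix : Nat.card (fixedF σ) = p ^ k := by
    have h1 := card_eq_card_fixedF_pow σ hord
    rw [Nat.card_eq_fintype_card (α := F), hF, mul_comm r k, pow_mul] at h1
    exact (Nat.pow_left_injective (n := r) (by have := hr.pos; omega) h1).symm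
  haveI : Fintype (fixedF σ) := Fintype.ofFinite _
  have hcard : Fintype.card F₀ = Fintype.card (fixedF σ) := by
    rw [hF₀, ← Nat.card_eq_fintype_card, hfix]
  let e₀ : F₀ ≃+* fixedF σ := FiniteField.ringEquivOfCardEq hcard
  refine ⟨(fixedF σ).subtype.comp e₀.toRingHom, fun y => (e₀ y).2, fun y hy => ?_, ?_⟩
  · refine ⟨e₀.symm ⟨y, hy⟩, ?_⟩
    change ((e₀ (e₀.symm ⟨y, hy⟩) : fixedF σ) : F) = y
    rw [RingEquiv.apply_symm_apply]
  · rw [hF, hF₀, mul_comm r k, pow_mul]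

lemma even_card_iff {F : Type*} {F₀ : Type*} [Fintype F] [Fintype F₀] {r : ℕ} (hr : r.Prime)
    (h : Fintype.card F = Fintype.card F₀ ^ r) : Even (Fintype.card F) ↔ Even (Fintype.card F₀) := by
  rw [h, Nat.even_pow]
  simp [hr.ne_zero]

lemma congr_eq_trans {X Y : Type*} [Group X] [Group Y] (ψ : X ≃* Y) (x : MulAut X) :
    (ψ.symm.trans x).trans ψ = MulAut.congr ψ x := by
  ext a
  rfl

lemma map_comap_Inn {ι : Type} [Fintype ι] [DecidableEq ι] {F : Type*} [Field F] (f : (ι → F) → F) :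
    ((Inn (POmega F f)).comap (psiO f)).map (psiO f) = Inn (POmega F f) := by
  apply le_antisymm
  · rintro _ ⟨g, hg, rfl⟩
    exact hg
  · intro β hβ
    have hβ' := hβ
    rw [Inn_eq] at hβ'
    obtain ⟨t, -, rfl⟩ := hβ'
    exact ⟨t, hβ, rfl⟩

/-- Transport of the count and of the centraliser. -/
lemma transport_all {X Y : Type*} [Group X] [Group Y] (e : X ≃* Y) {H K : Subgroup X} {H' K' : Subgroup Y} {x : X} {x' : Y}
    (h1 : H.map e.toMonoidHom = H') (h2 : K.map e.toMonoidHom = K') (h3 : e x = x') :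
    splitClassCount H K x = splitClassCount H' K' x' ∧
      Nonempty (↥(H ⊓ Subgroup.centralizer {x}) ≃* ↥(H' ⊓ Subgroup.centralizer {x'})) := by
  subst h1 h2 h3
  exact ⟨(splitClassCount_map e H K x).symm, cent_map_equiv e H x⟩

/-- The centraliser in characteristic two. -/
theorem cent_two {ι : Type} [Fintype ι] [DecidableEq ι] {F₀ F : Type*} [Field F₀] [Field F] [Fintype F₀] [Fintype F]
    {j : F₀ →+* F} {σ : F ≃+* F} {f₀ : (ι → F₀) → F₀} {f : (ι → F) → F}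
    {q₀ : QuadraticForm F₀ (ι → F₀)} {q : QuadraticForm F (ι → F)} (h2₀ : Even (Fintype.card F₀)) (h2 : Even (Fintype.card F))
    (B : BC j σ f₀ f q₀ q) (hσ : SInv f σ) {r : ℕ} (hr : 0 < r) (hord : orderOf σ = r)
    (D : OG q →* ℤˣ) (hD : ∀ (o : OG q) (x : ι → F), IsRefl o x → D o = -1) :
    Nonempty (↥(Inn (POmega F f) ⊓ Subgroup.centralizer {(fa1 hσ : MulAut (POmega F f))}) ≃* ↥(Inn (POmega F₀ f₀))) := by
  have h := cent_equiv1 B hσ hr hord ((Inn (POmega F f)).comap (psiO f)) ((Inn (POmega F₀ f₀)).comap (psiO f₀))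
    (fun g => inn_iff_of_bc h2₀ h2 B D hD g) (fun g d => by
      change psiO f _ ∈ Inn (POmega F f) ↔ psiO f _ ∈ Inn (POmega F f)
      rw [map_mul]
      have : psiO f (scO B.S d) = 1 := dl_scO B.S d
      rw [this, one_mul])
  rwa [map_comap_Inn, map_comap_Inn] at h

set_option maxHeartbeats 4000000 in
/-- The main theorem for the minus form. -/
theorem main_minus {F : Type u} [Field F] [Fintype F] {p f : ℕ} [Fact p.Prime] (hF : Fintype.card F = p ^ f) (hf : 1 ≤ f)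
    {m : ℕ} (hm : 3 ≤ m) (a b : F) (hab : ∀ z₁ z₂ : F, z₁ ^ 2 + a * z₁ * z₂ + b * z₂ ^ 2 = 0 → z₁ = 0 ∧ z₂ = 0)
    (x : MulAut (POmega F (quadFormMinus m F a b))) (hx : IsFieldAutClassPOmegaMinus m x) {r : ℕ} (hr : r.Prime)
    (hxr : orderOf x = r) (F₀ : Type v) [Field F₀] [Fintype F₀] (hF₀ : Fintype.card F₀ = p ^ (f / r)) :
    Odd r ∧ r ∣ f ∧ (∃ a₀ b₀ : F₀, (∀ z₁ z₂ : F₀, z₁ ^ 2 + a₀ * z₁ * z₂ + b₀ * z₂ ^ 2 = 0 → z₁ = 0 ∧ z₂ = 0) ∧
      Nonempty (↥(inndiagPOmegaMinus m F a b ⊓ Subgroup.centralizer {x}) ≃* ↥(inndiagPOmegaMinus m F₀ a₀ b₀))) ∧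
      splitClassCount (inndiagPOmegaMinus m F a b) (Inn (POmega F (quadFormMinus m F a b))) x = 1 := by
  classical
  obtain ⟨n, rfl⟩ : ∃ n, m = n + 2 := ⟨m - 2, by omega⟩
  have hn : 1 ≤ n := by omega
  obtain ⟨a', b', ψ, σ, hab', -, hσa, hσb, hI⟩ := hx
  have hσ : SInv (quadFormMinus (n + 2) F a' b') σ := by
    intro v
    simp only [quadFormMinus, sv, map_add, map_mul, map_pow, map_sum, hσa, hσb]
  have S' := sys_minus a' b' hab' n
  have hx' : MulAut.congr ψ x = fa1 hσ := by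
    rw [← congr_eq_trans]
    exact (isFieldAut_iff1 hσ _).1 hI
  have hord : orderOf σ = r := by
    rw [← hxr, ← orderOf_fa1 hσ S', ← hx']
    exact orderOf_injective (MulAut.congr ψ).toMonoidHom (MulAut.congr ψ).injective x
  have hroddr : Odd r := by
    rcases hr.eq_two_or_odd' with rfl | h
    · exact (no_aniso_of_two hord hσa hσb hab').elim
    · exact h
  obtain ⟨hrf, j, hfix, hran, hcard⟩ := exists_sub hF hf hr hord F₀ hF₀
  refine ⟨hroddr, hrf, ?_⟩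
  obtain ⟨a₀, ha₀⟩ := hran a' hσa
  obtain ⟨b₀, hb₀⟩ := hran b' hσb
  have hab₀ : ∀ z₁ z₂ : F₀, z₁ ^ 2 + a₀ * z₁ * z₂ + b₀ * z₂ ^ 2 = 0 → z₁ = 0 ∧ z₂ = 0 := by
    intro z₁ z₂ h
    have h1 := hab' (j z₁) (j z₂) (by
      have := congrArg j h
      simpa [ha₀, hb₀] using this)
    exact ⟨(map_eq_zero j).1 h1.1, (map_eq_zero j).1 h1.2⟩
  have B : BC j σ (quadFormMinus (n + 2) F₀ a₀ b₀) (quadFormMinus (n + 2) F a' b') (qMinus (n + 2) a₀ b₀) (qMinus (n + 2) a' b') := by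
    refine ⟨⟨fun v => ?_⟩, sys_minus a₀ b₀ hab₀ n, S', hfix, hran⟩
    rw [qMinus_apply, qMinus_apply]
    simp [quadFormMinus, mapV, ha₀, hb₀, map_sum]
  obtain ⟨hcount, ⟨e₁⟩⟩ := transport_all (MulAut.congr ψ) (inndiag_map_minus hab hab' hn ψ) (Inn_map ψ) hx'
  rw [hcount]
  rcases Nat.even_or_odd (Fintype.card F) with h2 | hodd
  · have h2₀ := (even_card_iff hr hcard).1 h2
    rw [inndiag_minus_two h2 a' b' hab' n]
    refine ⟨⟨a₀, b₀, hab₀, ?_⟩, count_self _ _⟩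
    rw [inndiag_minus_two h2 a' b' hab' n] at e₁
    rw [inndiag_minus_two h2₀ a₀ b₀ hab₀ n]
    obtain ⟨D, hD⟩ := exists_D_minus h2 a' b' hab' n
    obtain ⟨e₂⟩ := cent_two h2₀ h2 B hσ hr.pos hord D hD
    exact ⟨e₁.trans e₂⟩
  · have hodd₀ : Odd (Fintype.card F₀) := by
      rw [← Nat.not_even_iff_odd, ← even_card_iff hr hcard, Nat.not_even_iff_odd]
      exact hodd
    obtain ⟨D', -⟩ := exists_data_minus hodd a' b' hab' n
    obtain ⟨D₀, -⟩ := exists_data_minus hodd₀ a₀ b₀ hab₀ n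
    rw [inndiag_minus a' b' hab' n D'] at e₁ ⊢
    refine ⟨⟨a₀, b₀, hab₀, ?_⟩, count_of_ns D₀ D' B hσ ?_⟩
    · rw [inndiag_minus a₀ b₀ hab₀ n D₀]
      obtain ⟨e₂⟩ := cent_Gd D₀ D' B hσ hr.pos hord
      exact ⟨e₁.trans e₂⟩
    · intro ν hν0 hν
      exact not_isSquare_j_of_odd j hodd₀ hroddr hcard hν0 hν

end Cfsg.Agent.Lib.FieldPOm
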