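import Cfsg.Agent.Lib.PgoGraphInv
import Cfsg.Agent.Lib.AutPOm.FieldCent
import Cfsg.Agent.Lib.AutOrthFam

/-!
# Field automorphisms attached to one automorphism of the field fixing a form
-/

set_option autoImplicit false
set_option linter.unusedSectionVars false
set_option linter.unusedSimpArgs false
set_option linter.unusedVariables false

namespace Cfsg.Agent.Lib.FieldPOm

open Module QuadraticMap Cfsg.Agent.Lib.OrthoBasic Cfsg.Agent.Lib.OrthoSiegel Cfsg.Agent.Lib.OrthoGen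
  Cfsg.Agent.Lib.OrthoFinal Cfsg.Agent.Lib.PgoPsi Cfsg.Agent.Lib.PgoGroup Cfsg.Agent.Lib.GammaCount
  Cfsg.Agent.Lib.Hilbert90 Cfsg.Agent.Lib.QuadFF Cfsg.Agent.Lib.QuadClass Cfsg.Agent.Lib.OrthoCount
  Cfsg.Agent.Lib.OrthoChar Cfsg.Agent.Lib.OrthoIndex Cfsg.Agent.Lib.AutPOm
open Cfsg Matrix

variable {ι : Type} [Fintype ι] [DecidableEq ι] {F₀ F : Type*} [Field F₀] [Field F]

section inv

variable {f : (ι → F) → F} {σ : F ≃+* F}

/-- The form is invariant under one automorphism of the field. -/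
def SInv (f : (ι → F) → F) (σ : F ≃+* F) : Prop := ∀ v, f (sv σ v) = σ (f v)

lemma SInv.symm (h : SInv f σ) : SInv f σ.symm := by
  intro v
  apply σ.injective
  rw [← h, sv_symm', RingEquiv.apply_symm_apply]

lemma semisim_fa1 (h : SInv f σ) : IsSemisimilarityPair f (1 : GL ι F) σ :=
  ⟨1, fun v => by
    rw [Units.val_one, Matrix.one_mulVec, Units.val_one, one_mul]
    exact h v⟩

/-- The standard field automorphism of `σ`. -/
noncomputable def fa1 (h : SInv f σ) : MulAut (POmega F f) := gs (semisim_fa1 h)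

lemma isFieldAut_iff1 (h : SInv f σ) (β : POmega F f ≃* POmega F f) :
    IsFieldAutPOmegaOf f σ β ↔ β = fa1 h := by
  have e : ∀ M : Matrix ι ι F, (1 : GL ι F).1 * M * ((1 : GL ι F)⁻¹ : GL ι F).1 = M := by
    intro M
    simp
  constructor
  · intro h1
    have h2 : IsInducedBySemilinearPOmega f 1 σ β := by
      intro s s' hs
      apply h1
      rw [hs, e]
    exact (GammaCount.induced_iff f (semisim_fa1 h) β).1 h2
  · rintro rfl s s' hs
    apply gs_induced (semisim_fa1 h)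
    rw [hs, e]

lemma glMap_mem_CO1 (h : SInv f σ) {g : GL ι F} (hg : g ∈ CO f) : glMap σ g ∈ CO f := by
  obtain ⟨c, hc⟩ := hg
  refine ⟨Units.map (σ : F →* F) c, fun v => ?_⟩
  have h1 := h ((g : Matrix ι ι F) *ᵥ sv σ.symm v)
  rw [sv_mulVec, sv_symm', hc, map_mul, ← h, sv_symm'] at h1
  exact h1

/-- The action of the field automorphism on similarities. -/
noncomputable def glO1 (h : SInv f σ) (g : CO f) : CO f := ⟨glMap σ g, glMap_mem_CO1 h g.2⟩

lemma glO1_coe (h : SInv f σ) (g : CO f) : ((glO1 h g : CO f) : GL ι F) = glMap σ g := rfl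

lemma fa1_mul_dl (h : SInv f σ) (g : CO f) : fa1 h * dl g = dl (glO1 h g) * fa1 h := by
  rw [fa1, ← gs_eq_dl, ← gs_eq_dl, gs_mul, gs_mul]
  apply gs_congr
  have h1 : (1 : GL ι F) * glMap σ (g : GL ι F) = glMap σ g := one_mul _
  have h2 : ((glO1 h g : CO f) : GL ι F) * glMap (RingEquiv.refl F) 1 = glMap σ g := by
    rw [map_one, mul_one]
    rfl
  rw [h1, h2]
  rfl

variable {q : QuadraticForm F (ι → F)} [Fintype F] 

lemma commute_dl_fa1_iff (h : SInv f σ) (S : Sys f q) (u : CO f) :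
    Commute (dl u) (fa1 h) ↔ ∃ c : Fˣ, glMap σ (u : GL ι F) = sc c * (u : GL ι F) := by
  have key : Commute (dl u) (fa1 h) ↔ dl (glO1 h u) = dl u := by
    constructor
    · intro h1
      have h2 : dl u * fa1 h = fa1 h * dl u := h1
      rw [fa1_mul_dl] at h2
      exact (mul_right_cancel h2).symm
    · intro h1
      change dl u * fa1 h = fa1 h * dl u
      rw [fa1_mul_dl, h1]
  rw [key, dl_eq_dl_iff S]
  rfl

lemma nrmG_one (k : ℕ) : nrmG σ (1 : GL ι F) k = 1 := by
  induction k with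
  | zero => rfl
  | succ k ih => rw [nrmG_succ, ih, map_one, one_mul]

lemma fa1_pow_eq_one_iff (h : SInv f σ) (S : Sys f q) (k : ℕ) : (fa1 h) ^ k = 1 ↔ σ ^ k = 1 := by
  rw [fa1, gs_pow]
  constructor
  · intro h1
    exact gs_eq_one_right S _ h1
  · intro h1
    have h2 := semisim_nrm (semisim_fa1 h) k
    have e : gs (semisim_nrm (semisim_fa1 h) k) = gs (semisim_one (Q := f)) := by
      apply gs_congr
      rw [nrmG_one, h1]
      rfl
    rw [e]
    exact gs_one

lemma orderOf_fa1 (h : SInv f σ) (S : Sys f q) : orderOf (fa1 h) = orderOf σ := by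
  rw [orderOf_eq_orderOf_iff]
  exact fun k => fa1_pow_eq_one_iff h S k

end inv

section cent

variable {j : F₀ →+* F} {σ : F ≃+* F} {f₀ : (ι → F₀) → F₀} {f : (ι → F) → F}
  {q₀ : QuadraticForm F₀ (ι → F₀)} {q : QuadraticForm F (ι → F)}

/-- The extension of scalars on similarity groups, for base-change data. -/
noncomputable abbrev mapB (B : BC j σ f₀ f q₀ q) : CO f₀ →* CO f :=
  mapCO B.comp (fun v => B.S₀.hf v) (fun v => B.S.hf v)

lemma mapB_coe (B : BC j σ f₀ f q₀ q) (g : CO f₀) : ((mapB B g : CO f) : GL ι F) = glJ j g := rfl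

lemma commute_mapB [Fintype F] (B : BC j σ f₀ f q₀ q) (hσ : SInv f σ) (g : CO f₀) :
    Commute (dl (mapB B g)) (fa1 hσ) := by
  refine (commute_dl_fa1_iff hσ B.S _).2 ⟨1, ?_⟩
  rw [sc_one, one_mul]
  exact glMap_glJ B.fix _

/-- A similarity commuting with the field automorphism is rational up to a scalar. -/
lemma exists_rat [Fintype F] (B : BC j σ f₀ f q₀ q) (hσ : SInv f σ) {r : ℕ} (hr : 0 < r) (hord : orderOf σ = r)
    (u : CO f) (hu : Commute (dl u) (fa1 hσ)) :
    ∃ (d : Fˣ) (u₀ : CO f₀), mapB B u₀ = scO B.S d * u := by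
  have hne := nonempty_of_sys B.S
  obtain ⟨c, hc⟩ := (commute_dl_fa1_iff hσ B.S u).1 hu
  obtain ⟨d, hd⟩ := exists_fixed_of_commute hr hord hc
  obtain ⟨u₀, hu₀⟩ := exists_glJ_of_fixed B.ran hd
  have hu₀CO : u₀ ∈ CO f₀ := B.mem_CO_of_glJ (by
    rw [hu₀]
    exact (CO f).mul_mem (sc_mem_CO B.S d) u.2)
  exact ⟨d, ⟨u₀, hu₀CO⟩, Subtype.ext hu₀⟩

/-- The centraliser of the field automorphism. -/
theorem cent_equiv1 [Fintype F] [Fintype F₀] (B : BC j σ f₀ f q₀ q) (hσ : SInv f σ) {r : ℕ} (hr : 0 < r)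
    (hord : orderOf σ = r) (A : Subgroup (CO f)) (A₀ : Subgroup (CO f₀))
    (hA : ∀ g : CO f₀, g ∈ A₀ ↔ mapB B g ∈ A)
    (hAz : ∀ (g : CO f) (d : Fˣ), scO B.S d * g ∈ A ↔ g ∈ A) :
    Nonempty (↥(A.map (psiO f) ⊓ Subgroup.centralizer {(fa1 hσ : MulAut (POmega F f))}) ≃* ↥(A₀.map (psiO f₀))) := by
  classical
  have hne := nonempty_of_sys B.S
  set e := mapB B with he
  have hmem : ∀ g : A₀, dl (e g) ∈ A.map (psiO f) ⊓ Subgroup.centralizer {(fa1 hσ : MulAut (POmega F f))} := by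
    intro g
    refine ⟨⟨e g, (hA g).1 g.2, rfl⟩, ?_⟩
    change dl (e g) ∈ Subgroup.centralizer {(fa1 hσ : MulAut (POmega F f))}
    rw [Subgroup.mem_centralizer_singleton_iff]
    exact commute_mapB B hσ _
  let P₁ : A₀ →* ↥(A.map (psiO f) ⊓ Subgroup.centralizer {(fa1 hσ : MulAut (POmega F f))}) :=
    ((psiO f).comp (e.comp A₀.subtype)).codRestrict _ hmem
  let P₀ : A₀ →* ↥(A₀.map (psiO f₀)) := (psiO f₀).subgroupMap A₀
  have hP₀ : Function.Surjective P₀ := (psiO f₀).subgroupMap_surjective A₀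
  have hP₁ : Function.Surjective P₁ := by
    rintro ⟨β, ⟨u, hu, rfl⟩, hβ⟩
    replace hβ : dl u ∈ Subgroup.centralizer {(fa1 hσ : MulAut (POmega F f))} := hβ
    rw [Subgroup.mem_centralizer_singleton_iff] at hβ
    obtain ⟨d, u₀, hk⟩ := exists_rat B hσ hr hord u hβ
    have hu₀A : u₀ ∈ A₀ := by
      rw [hA, hk, hAz]
      exact hu
    refine ⟨⟨u₀, hu₀A⟩, ?_⟩
    apply Subtype.ext
    change dl (e u₀) = dl u
    rw [he, hk, dl_mul, dl_scO, one_mul]
  have hker : P₁.ker = P₀.ker := by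
    ext g
    rw [MonoidHom.mem_ker, MonoidHom.mem_ker]
    have h1 : P₁ g = 1 ↔ dl (e g) = 1 := by
      constructor
      · intro h
        exact congrArg Subtype.val h
      · intro h
        exact Subtype.ext h
    have h2 : P₀ g = 1 ↔ dl (g : CO f₀) = 1 := by
      constructor
      · intro h
        exact congrArg Subtype.val h
      · intro h
        exact Subtype.ext h
    rw [h1, h2, dl_eq_one_iff B.S, dl_eq_one_iff B.S₀]
    constructor
    · rintro ⟨c, hc⟩
      exact scalar_of_glJ hc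
    · rintro ⟨c, hc⟩
      refine ⟨Units.map (j : F₀ →* F) c, ?_⟩
      change glJ j ((g : CO f₀) : GL ι F₀) = _
      rw [hc]
      apply Units.ext
      ext s t
      simp [sc_coe, Matrix.scalar_apply, Matrix.diagonal_apply]
      split_ifs <;> simp
  exact ⟨((QuotientGroup.quotientKerEquivOfSurjective P₁ hP₁).symm.trans
    (QuotientGroup.quotientMulEquivOfEq hker)).trans (QuotientGroup.quotientKerEquivOfSurjective P₀ hP₀)⟩

end cent

end Cfsg.Agent.Lib.FieldPOm
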