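import Cfsg.Agent.Lib.FieldPOm.Two
import Cfsg.Agent.Lib.AutOrthOutMinus

/-!
# Transport along isometries of forms and along isomorphisms of groups
-/

set_option autoImplicit false
set_option linter.unusedSectionVars false
set_option linter.unusedSimpArgs false
set_option linter.unusedVariables false

namespace Cfsg.Agent.Lib.FieldPOm

open Module QuadraticMap Cfsg.Agent.Lib.OrthoBasic Cfsg.Agent.Lib.OrthoSiegel Cfsg.Agent.Lib.OrthoGen
  Cfsg.Agent.Lib.OrthoFinal Cfsg.Agent.Lib.PgoPsi Cfsg.Agent.Lib.PgoGroup Cfsg.Agent.Lib.GammaCount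
  Cfsg.Agent.Lib.Hilbert90 Cfsg.Agent.Lib.QuadFF Cfsg.Agent.Lib.QuadClass Cfsg.Agent.Lib.OrthoCount
  Cfsg.Agent.Lib.OrthoChar Cfsg.Agent.Lib.OrthoIndex Cfsg.Agent.Lib.AutPOm Cfsg.Agent.Lib.PgoParity
  Cfsg.Agent.Lib.OrthoOrder Cfsg.Agent.Lib.PgoClass Cfsg.Agent.Lib.AutOrthOut Cfsg.Agent.Lib.PgoSim
  Cfsg.Agent.Lib.PgoSim.Data
open Cfsg Matrix

section generic

variable {X Y : Type*} [Group X] [Group Y]

theorem splitClassCount_map (e : X ≃* Y) (H K : Subgroup X) (x : X) :
    splitClassCount (H.map e.toMonoidHom) (K.map e.toMonoidHom) (e x) = splitClassCount H K x := by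
  have hf : ∀ y, IsConjUnder H x y → IsConjUnder (H.map e.toMonoidHom) (e x) (e y) := by
    rintro y ⟨h, hh, rfl⟩
    exact ⟨e h, ⟨h, hh, rfl⟩, by simp⟩
  have hg : ∀ y, IsConjUnder (H.map e.toMonoidHom) (e x) y → IsConjUnder H x (e.symm y) := by
    rintro y ⟨_, ⟨h, hh, rfl⟩, rfl⟩
    exact ⟨h, hh, by simp⟩
  let F1 : {y // IsConjUnder H x y} → {y // IsConjUnder (H.map e.toMonoidHom) (e x) y} := fun y => ⟨e y.1, hf _ y.2⟩
  let G1 : {y // IsConjUnder (H.map e.toMonoidHom) (e x) y} → {y // IsConjUnder H x y} := fun y => ⟨e.symm y.1, hg _ y.2⟩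
  have hf' : ∀ y z : {y // IsConjUnder H x y}, IsConjUnder K y.1 z.1 → IsConjUnder (K.map e.toMonoidHom) (F1 y).1 (F1 z).1 := by
    rintro y z ⟨k, hk, he⟩
    refine ⟨e k, ⟨k, hk, rfl⟩, ?_⟩
    change e z.1 = _ * e y.1 * _
    rw [he]
    simp
  have hg' : ∀ y z : {y // IsConjUnder (H.map e.toMonoidHom) (e x) y}, IsConjUnder (K.map e.toMonoidHom) y.1 z.1 → IsConjUnder K (G1 y).1 (G1 z).1 := by
    rintro y z ⟨_, ⟨k, hk, rfl⟩, he⟩
    refine ⟨k, hk, ?_⟩
    change e.symm z.1 = _ * e.symm y.1 * _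
    rw [he]
    simp
  unfold splitClassCount
  apply Nat.card_congr
  refine ⟨Quot.map G1 hg', Quot.map F1 hf', ?_, ?_⟩
  · intro a
    induction a using Quot.ind with
    | mk y =>
      change Quot.mk _ (F1 (G1 y)) = Quot.mk _ y
      congr 1
      apply Subtype.ext
      change e (e.symm y.1) = y.1
      simp
  · intro a
    induction a using Quot.ind with
    | mk y =>
      change Quot.mk _ (G1 (F1 y)) = Quot.mk _ y
      congr 1
      apply Subtype.ext
      change e.symm (e y.1) = y.1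
      simp

theorem cent_map_equiv (e : X ≃* Y) (H : Subgroup X) (x : X) :
    Nonempty (↥(H ⊓ Subgroup.centralizer {x}) ≃* ↥(H.map e.toMonoidHom ⊓ Subgroup.centralizer {e x})) := by
  have h : (H ⊓ Subgroup.centralizer {x}).map e.toMonoidHom = H.map e.toMonoidHom ⊓ Subgroup.centralizer {e x} := by
    ext y
    constructor
    · rintro ⟨z, ⟨hz1, hz2⟩, rfl⟩
      refine ⟨⟨z, hz1, rfl⟩, ?_⟩
      have hz2' : z ∈ Subgroup.centralizer {x} := hz2
      rw [Subgroup.mem_centralizer_singleton_iff] at hz2'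
      change e z ∈ Subgroup.centralizer {e x}
      rw [Subgroup.mem_centralizer_singleton_iff, ← map_mul, hz2', map_mul]
    · rintro ⟨⟨z, hz, rfl⟩, hy2⟩
      refine ⟨z, ⟨hz, ?_⟩, rfl⟩
      have hy2' : e z ∈ Subgroup.centralizer {e x} := hy2
      rw [Subgroup.mem_centralizer_singleton_iff, ← map_mul, ← map_mul] at hy2'
      change z ∈ Subgroup.centralizer {x}
      rw [Subgroup.mem_centralizer_singleton_iff]
      exact e.injective hy2'
  exact ⟨(e.subgroupMap (H ⊓ Subgroup.centralizer {x})).trans (MulEquiv.subgroupCongr h)⟩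

lemma congr_conj (φ : X ≃* Y) (a : X) : MulAut.congr φ (MulAut.conj a) = MulAut.conj (φ a) := by
  ext y
  simp [MulAut.congr]

lemma Inn_map (φ : X ≃* Y) : (Inn X).map (MulAut.congr φ).toMonoidHom = Inn Y := by
  ext β
  constructor
  · rintro ⟨_, ⟨a, rfl⟩, rfl⟩
    exact ⟨φ a, (congr_conj φ a).symm⟩
  · rintro ⟨b, rfl⟩
    refine ⟨MulAut.conj (φ.symm b), ⟨_, rfl⟩, ?_⟩
    change MulAut.congr φ _ = _
    rw [congr_conj]
    simp

lemma congr_apply_map (φ : X ≃* Y) (β : MulAut X) (a : X) : MulAut.congr φ β (φ a) = φ (β a) := by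
  simp [MulAut.congr]

/-- Conjugate of an automorphism under the congruence. -/
lemma congr_trans (ψ φ : X ≃* Y) (y : MulAut X) :
    MulAut.congr ψ y = MulAut.congr φ ((ψ.trans φ.symm) * y * (ψ.trans φ.symm)⁻¹) := by
  ext a
  simp [MulAut.congr, MulAut.mul_apply, MulAut.inv_def]

end generic

/-! ### Isometries of forms -/

section iso

variable {ι ι' : Type} [Fintype ι] [Fintype ι'] [DecidableEq ι] [DecidableEq ι'] {F : Type*} [Field F]
  {f : (ι → F) → F} {f' : (ι' → F) → F}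

/-- Transport of invertible matrices along a linear isomorphism. -/
noncomputable def cP (P : (ι → F) ≃ₗ[F] (ι' → F)) : GL ι F ≃* GL ι' F where
  toFun g := glEquiv.symm (P.symm.trans ((glEquiv g).trans P))
  invFun g := glEquiv.symm (P.trans ((glEquiv g).trans P.symm))
  left_inv g := by
    apply glEquiv.injective
    ext1 v
    simp
  right_inv g := by
    apply glEquiv.injective
    ext1 v
    simp
  map_mul' a b := by
    apply glEquiv.injective
    ext1 v
    simp [LinearEquiv.mul_apply]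

lemma cP_mulVec (P : (ι → F) ≃ₗ[F] (ι' → F)) (g : GL ι F) (w : ι' → F) :
    ((cP P g : GL ι' F) : Matrix ι' ι' F) *ᵥ w = P ((g : Matrix ι ι F) *ᵥ P.symm w) := by
  have h := glEquiv_apply (cP P g) w
  rw [← h]
  change glEquiv (glEquiv.symm (P.symm.trans ((glEquiv g).trans P))) w = _
  simp [glEquiv_apply]

lemma cP_mulVec_P (P : (ι → F) ≃ₗ[F] (ι' → F)) (g : GL ι F) (v : ι → F) :
    ((cP P g : GL ι' F) : Matrix ι' ι' F) *ᵥ P v = P ((g : Matrix ι ι F) *ᵥ v) := by
  rw [cP_mulVec, LinearEquiv.symm_apply_apply]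

lemma cP_det (P : (ι → F) ≃ₗ[F] (ι' → F)) (g : GL ι F) :
    ((cP P g : GL ι' F) : Matrix ι' ι' F).det = (g : Matrix ι ι F).det := by
  have h1 : Matrix.toLin' ((cP P g : GL ι' F) : Matrix ι' ι' F) =
      (P : (ι → F) →ₗ[F] (ι' → F)) ∘ₗ Matrix.toLin' (g : Matrix ι ι F) ∘ₗ (P.symm : (ι' → F) →ₗ[F] (ι → F)) := by
    apply LinearMap.ext
    intro w
    rw [Matrix.toLin'_apply, cP_mulVec]
    rfl
  rw [← LinearMap.det_toLin', h1, LinearMap.det_conj, LinearMap.det_toLin']

variable {P : (ι → F) ≃ₗ[F] (ι' → F)}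

lemma cP_sim (hP : ∀ v, f' (P v) = f v) {g : GL ι F} {c : F} (hg : ∀ v, f ((g : Matrix ι ι F) *ᵥ v) = c * f v) (w : ι' → F) :
    f' (((cP P g : GL ι' F) : Matrix ι' ι' F) *ᵥ w) = c * f' w := by
  obtain ⟨v, rfl⟩ := P.surjective w
  rw [cP_mulVec_P, hP, hP, hg]

lemma cP_symm_sim (hP : ∀ v, f' (P v) = f v) {g : GL ι' F} {c : F} (hg : ∀ v, f' ((g : Matrix ι' ι' F) *ᵥ v) = c * f' v) (v : ι → F) :
    f ((((cP P).symm g : GL ι F) : Matrix ι ι F) *ᵥ v) = c * f v := by
  obtain ⟨u, rfl⟩ := (cP P).surjective g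
  rw [MulEquiv.symm_apply_apply, ← hP, ← hP, ← cP_mulVec_P]
  exact hg _

lemma cP_mem_iso_iff (hP : ∀ v, f' (P v) = f v) (g : GL ι F) :
    cP P g ∈ isometryGroup F f' ↔ g ∈ isometryGroup F f := by
  rw [GammaCount.mem_iso_iff, GammaCount.mem_iso_iff]
  constructor
  · intro h v
    rw [← hP, ← cP_mulVec_P, h, hP]
  · intro h w
    have := cP_sim (c := 1) hP (g := g) (fun v => by rw [h, one_mul]) w
    rwa [one_mul] at this

lemma cP_map_iso (hP : ∀ v, f' (P v) = f v) : (isometryGroup F f).map (cP P).toMonoidHom = isometryGroup F f' := by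
  ext g
  rw [Subgroup.mem_map_equiv, ← cP_mem_iso_iff hP]
  simp

/-- The isometry groups. -/
noncomputable def isoE (hP : ∀ v, f' (P v) = f v) : isometryGroup F f ≃* isometryGroup F f' :=
  ((cP P).subgroupMap (isometryGroup F f)).trans (MulEquiv.subgroupCongr (cP_map_iso hP))

lemma isoE_coe (hP : ∀ v, f' (P v) = f v) (a : isometryGroup F f) :
    ((isoE hP a : isometryGroup F f') : GL ι' F) = cP P a := rfl

/-- The groups `Ω`. -/
noncomputable def omE (hP : ∀ v, f' (P v) = f v) : Omega F f ≃* Omega F f' :=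
  ((isoE hP).subgroupMap (commutator (isometryGroup F f))).trans (MulEquiv.subgroupCongr (map_commutator_equiv (isoE hP)))

lemma omE_coe (hP : ∀ v, f' (P v) = f v) (s : Omega F f) :
    (((omE hP s : Omega F f') : isometryGroup F f') : GL ι' F) = cP P ((s : isometryGroup F f) : GL ι F) := rfl

lemma map_center_equiv {A B : Type*} [Group A] [Group B] (e : A ≃* B) :
    (Subgroup.center A).map e.toMonoidHom = Subgroup.center B := by
  ext x
  rw [Subgroup.mem_map_equiv, Subgroup.mem_center_iff, Subgroup.mem_center_iff]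
  constructor
  · intro h g
    have := h (e.symm g)
    have h2 := congrArg e this
    simpa using h2
  · intro h g
    have := h (e g)
    have h2 := congrArg e.symm this
    simpa using h2

/-- The groups `PΩ`. -/
noncomputable def pO (hP : ∀ v, f' (P v) = f v) : POmega F f ≃* POmega F f' :=
  QuotientGroup.congr _ _ (omE hP) (map_center_equiv (omE hP))

lemma pO_mk (hP : ∀ v, f' (P v) = f v) (s : Omega F f) :
    pO hP (s : POmega F f) = ((omE hP s : Omega F f') : POmega F f') := rfl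

/-- Similarities of the two forms. -/
lemma cP_mem_CO_iff (hP : ∀ v, f' (P v) = f v) (g : GL ι F) : cP P g ∈ CO f' ↔ g ∈ CO f := by
  constructor
  · rintro ⟨c, hc⟩
    refine ⟨c, fun v => ?_⟩
    have h1 := cP_symm_sim (c := c) hP (g := cP P g) (fun v => hc v) v
    rwa [MulEquiv.symm_apply_apply] at h1
  · rintro ⟨c, hc⟩
    exact ⟨c, fun v => cP_sim hP (fun v => hc v) v⟩

/-- The map on similarity groups. -/
noncomputable def cPC (hP : ∀ v, f' (P v) = f v) (g : CO f) : CO f' := ⟨cP P g, (cP_mem_CO_iff hP _).2 g.2⟩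

lemma cPC_coe (hP : ∀ v, f' (P v) = f v) (g : CO f) : ((cPC hP g : CO f') : GL ι' F) = cP P g := rfl

lemma cPC_surj (hP : ∀ v, f' (P v) = f v) (g : CO f') : ∃ u : CO f, cPC hP u = g := by
  refine ⟨⟨(cP P).symm g, ?_⟩, ?_⟩
  · rw [← cP_mem_CO_iff hP]
    simpa using g.2
  · apply Subtype.ext
    rw [cPC_coe]
    simp

/-- The transport of the action. -/
theorem congr_psiO (hP : ∀ v, f' (P v) = f v) (g : CO f) :
    MulAut.congr (pO hP) (psiO f g) = psiO f' (cPC hP g) := by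
  ext y
  obtain ⟨x, rfl⟩ := (pO hP).surjective y
  rw [congr_apply_map]
  induction x using QuotientGroup.induction_on with
  | H s =>
    rw [psiO_mk, pO_mk, pO_mk, psiO_mk]
    congr 1
    apply Subtype.ext
    apply Subtype.ext
    rw [omE_coe, conjOmega_coe, conjOmega_coe, omE_coe, cPC_coe, map_mul, map_mul, map_inv]

end iso

/-! ### The inner-diagonal group under the transport -/

section data

variable {ι ι' : Type} [Fintype ι] [Fintype ι'] [DecidableEq ι] [DecidableEq ι'] {F : Type*} [Field F] [Fintype F]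
  {f : (ι → F) → F} {f' : (ι' → F) → F} {P : (ι → F) ≃ₗ[F] (ι' → F)}
  {q : QuadraticForm F (ι → F)} {q' : QuadraticForm F (ι' → F)} {n : ℕ}

lemma multC_cPC (D : PgoSim.Data f q n) (D' : PgoSim.Data f' q' n) (hP : ∀ v, f' (P v) = f v) (g : CO f) :
    D'.multC (cPC hP g) = D.multC g :=
  D'.multC_eq (fun w => cP_sim hP (fun v => D.multC_spec g v) w)

lemma delta_cPC (D : PgoSim.Data f q n) (D' : PgoSim.Data f' q' n) (hP : ∀ v, f' (P v) = f v) (g : CO f) :
    D'.delta (cPC hP g) = D.delta g := by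
  rw [delta_apply, delta_apply, multC_cPC D D' hP]
  congr 1
  apply Units.ext
  exact cP_det P g

/-- Conjugation by a semisimilarity preserves the inner-diagonal group. -/
lemma Gd_conj_gamma (D : PgoSim.Data f q n) {γ : MulAut (POmega F f)} (hγ : γ ∈ gammaPOmega F f)
    {y : MulAut (POmega F f)} (hy : y ∈ D.delta.ker.map (psiO f)) : γ * y * γ⁻¹ ∈ D.delta.ker.map (psiO f) := by
  obtain ⟨g, σ, hg, rfl⟩ := Cfsg.Agent.Lib.TriAct.exists_of_mem_gamma hγ
  obtain ⟨u, hu, rfl⟩ := hy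
  refine ⟨_, ?_, (psiG_conj_psiO hg u).symm⟩
  change D.delta _ = 1
  rw [delta_coConj]
  exact hu

lemma Gd_conj_iff (D : PgoSim.Data f q n) {γ : MulAut (POmega F f)} (hγ : γ ∈ gammaPOmega F f)
    (y : MulAut (POmega F f)) : y ∈ D.delta.ker.map (psiO f) ↔ γ * y * γ⁻¹ ∈ D.delta.ker.map (psiO f) := by
  refine ⟨Gd_conj_gamma D hγ, fun h => ?_⟩
  have h1 := Gd_conj_gamma D (inv_mem hγ) h
  have e : γ⁻¹ * (γ * y * γ⁻¹) * γ⁻¹⁻¹ = y := by group
  rwa [e] at h1

/-- The inner-diagonal groups correspond under any isomorphism when the automorphism group is `Γ`. -/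
theorem Gd_map (D : PgoSim.Data f q n) (D' : PgoSim.Data f' q' n) (hP : ∀ v, f' (P v) = f v)
    (htop : gammaPOmega F f = ⊤) (ψ : POmega F f ≃* POmega F f') :
    (D.delta.ker.map (psiO f)).map (MulAut.congr ψ).toMonoidHom = D'.delta.ker.map (psiO f') := by
  set β : MulAut (POmega F f) := ψ.trans (pO hP).symm with hβ
  have hβm : β ∈ gammaPOmega F f := by
    rw [htop]
    exact Subgroup.mem_top _
  have hcongr := fun y => congr_trans ψ (pO hP) y
  ext y'
  constructor
  · rintro ⟨y, hy, rfl⟩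
    change MulAut.congr ψ y ∈ _
    rw [hcongr]
    obtain ⟨u, hu, hu'⟩ := Gd_conj_gamma D hβm hy
    rw [← hβ, ← hu', congr_psiO]
    refine ⟨_, ?_, rfl⟩
    change D'.delta _ = 1
    rw [delta_cPC D D' hP]
    exact hu
  · rintro ⟨u', hu', rfl⟩
    obtain ⟨u, rfl⟩ := cPC_surj hP u'
    have hu : D.delta u = 1 := by
      rw [← delta_cPC D D' hP]
      exact hu'
    have hy : β⁻¹ * psiO f u * β⁻¹⁻¹ ∈ D.delta.ker.map (psiO f) :=
      Gd_conj_gamma D (inv_mem hβm) ⟨u, hu, rfl⟩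
    refine ⟨_, hy, ?_⟩
    change MulAut.congr ψ _ = _
    rw [hcongr, ← hβ, ← congr_psiO]
    congr 1
    group

end data

end Cfsg.Agent.Lib.FieldPOm
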