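import Cfsg.Agent.Lib.FieldPOm.Sig
import Cfsg.Agent.Lib.FieldPOm.Par
import Cfsg.Agent.Lib.TriOut

/-!
# The inner-diagonal groups in characteristic two
-/

set_option autoImplicit false
set_option linter.unusedSectionVars false
set_option linter.unusedSimpArgs false
set_option linter.unusedVariables false

namespace Cfsg.Agent.Lib.FieldPOm

open Module QuadraticMap Cfsg.Agent.Lib.OrthoBasic Cfsg.Agent.Lib.OrthoSiegel Cfsg.Agent.Lib.OrthoGen
  Cfsg.Agent.Lib.OrthoFinal Cfsg.Agent.Lib.PgoPsi Cfsg.Agent.Lib.PgoGroup Cfsg.Agent.Lib.GammaCount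
  Cfsg.Agent.Lib.Hilbert90 Cfsg.Agent.Lib.QuadFF Cfsg.Agent.Lib.QuadClass Cfsg.Agent.Lib.OrthoCount
  Cfsg.Agent.Lib.OrthoChar Cfsg.Agent.Lib.OrthoIndex Cfsg.Agent.Lib.AutPOm Cfsg.Agent.Lib.PgoParity
  Cfsg.Agent.Lib.OrthoOrder Cfsg.Agent.Lib.PgoClass
open Cfsg Matrix

variable {F : Type*} [Field F] [Fintype F]

lemma ringChar_two (h2 : Even (Fintype.card F)) : ringChar F = 2 :=
  FiniteField.even_card_iff_char_two.2 (Nat.even_iff.1 h2)

lemma sq_of_even (h2 : Even (Fintype.card F)) (c : F) (hc : c ≠ 0) : ∃ d, d ≠ 0 ∧ c = d ^ 2 := by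
  obtain ⟨d, hd⟩ := FiniteField.isSquare_of_char_two (ringChar_two h2) c
  refine ⟨d, ?_, by rw [hd]; ring⟩
  rintro rfl
  apply hc
  rw [hd]
  ring

lemma two_eq_zero_of_even (h2 : Even (Fintype.card F)) : (2 : F) = 0 := by
  have h := ringChar_two h2
  have : CharP F 2 := h ▸ ringChar.charP F
  exact_mod_cast CharP.cast_eq_zero F 2

section main

variable {ι : Type} [Fintype ι] [DecidableEq ι] {f : (ι → F) → F} {q : QuadraticForm F (ι → F)}

lemma D_comm (D : OG q →* ℤˣ) {o : OG q} (ho : o ∈ commutator (OG q)) : D o = 1 := by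
  have h1 : commutator (OG q) ≤ D.ker := by
    rw [commutator_def, Subgroup.commutator_le]
    intro a _ b _
    rw [MonoidHom.mem_ker, map_commutatorElement, commutatorElement_def]
    generalize D a = x
    generalize D b = y
    calc x * y * x⁻¹ * y⁻¹ = (x * x⁻¹) * (y * y⁻¹) := by ac_rfl
      _ = 1 := by simp
  exact h1 ho

variable (h2 : Even (Fintype.card F)) (S : Sys f q) (D : OG q →* ℤˣ) (hD : ∀ (o : OG q) (x : ι → F), IsRefl o x → D o = -1)

include h2 S hD

/-- The parity homomorphism detects the Siegel group. -/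
theorem mem_E_iff (a : OG q) : a ∈ siegelE q ↔ D a = 1 := by
  obtain ⟨fr⟩ := S.fr
  have hE := omega_eq_E S.hQ S.hgen fr
  constructor
  · intro ha
    rw [← hE] at ha
    exact D_comm D ha
  · intro ha
    have hx1 : q (frX₁ fr) ≠ 0 := by rw [Q_frX₁ fr]; exact one_ne_zero
    have h3 := quot_two_cases (siegelE q) (siegelSet q ∪ reflSet q) S.hgen (refl S.hQ hx1)
      (by rw [refl_mul_self]; exact one_mem _) (by
        rintro s (⟨e, y, hs⟩ | ⟨x, hs⟩)
        · left
          exact IsSiegel.mem hs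
        · right
          obtain ⟨d, hd, hc⟩ := sq_of_even h2 _ hs.1
          exact refl_mul_inv_mem S.hQ fr hs (refl_isRefl S.hQ hx1) hd (by rw [hc, Q_frX₁ fr, mul_one]))
      (a : OG q ⧸ siegelE q)
    rcases h3 with h3 | h3
    · exact (QuotientGroup.eq_one_iff _).1 h3
    · exfalso
      have h4 := QuotientGroup.eq.1 h3
      have h5 := D_comm D (by rw [hE]; exact h4)
      rw [map_mul, map_inv, ha, hD _ _ (refl_isRefl S.hQ hx1)] at h5
      revert h5
      decide

/-- A similarity is a scalar times an isometry. -/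
lemma exists_iso_two (g : CO f) : ∃ (a : isometryGroup F f) (c : Fˣ), (g : GL ι F) = sc c * (a : GL ι F) := by
  obtain ⟨c, hc⟩ := g.2
  obtain ⟨d, hd, hcd⟩ := sq_of_even h2 (c : F) c.ne_zero
  set u : Fˣ := Units.mk0 d hd with hu
  have hiso : (sc u⁻¹ * (g : GL ι F) : GL ι F) ∈ isometryGroup F f := by
    rw [GammaCount.mem_iso_iff]
    intro v
    rw [Units.val_mul, ← Matrix.mulVec_mulVec, sc_mulVec, S.hf, Q_smul, ← S.hf, hc, ← mul_assoc]
    have h3 : ((u⁻¹ : Fˣ) : F) ^ 2 * (c : F) = 1 := by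
      rw [hcd, hu]
      simp only [Units.val_inv_eq_inv_val, Units.val_mk0]
      field_simp
    rw [h3, one_mul]
  refine ⟨⟨_, hiso⟩, u, ?_⟩
  change (g : GL ι F) = sc u * (sc u⁻¹ * (g : GL ι F))
  rw [← mul_assoc, ← sc_mul, mul_inv_cancel, sc_one, one_mul]

lemma sc_iso_one (c : Fˣ) (hc : (sc c : GL ι F) ∈ isometryGroup F f) : c = 1 := by
  obtain ⟨fr⟩ := S.fr
  have h3 := (GammaCount.mem_iso_iff f (sc c : GL ι F)).1 hc (fr.e₁ + fr.f₁)
  rw [sc_mulVec, S.hf, S.hf, Q_smul, Q_add, fr.h₁.Qe, fr.h₁.Qf, fr.h₁.B] at h3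
  have h4 : (c : F) * c = 1 := by linear_combination h3
  have h5 : ((c : F) - 1) ^ 2 = 0 := by
    have h6 := two_eq_zero_of_even h2
    linear_combination h4 + (1 - (c : F)) * h6
  apply Units.ext
  have := pow_eq_zero_iff (two_ne_zero) |>.1 h5
  simpa [sub_eq_zero] using this

/-- When an isometry induces an inner automorphism. -/
theorem isoC_inn_iff (a : isometryGroup F f) :
    psiO f (PgoSim.Data.isoC a) ∈ Inn (POmega F f) ↔ D (isoOG f q S.hf a) = 1 := by
  obtain ⟨fr⟩ := S.fr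
  have hE := omega_eq_E S.hQ S.hgen fr
  constructor
  · intro h
    rw [Inn_eq] at h
    obtain ⟨t, ht, hta⟩ := h
    obtain ⟨b, hb, hbt⟩ := (PgoSim.Data.mem_omegaC t).1 ht
    obtain ⟨c, hc⟩ := (dl_eq_dl_iff S _ _).1 (show dl (PgoSim.Data.isoC a) = dl t from hta.symm)
    have hcm : (sc c : GL ι F) ∈ isometryGroup F f := by
      have e : (sc c : GL ι F) = (a : GL ι F) * (b : GL ι F)⁻¹ := by
        have e1 : (a : GL ι F) = sc c * (b : GL ι F) := by
          rw [hbt]
          exact hc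
        rw [e1]
        group
      rw [e]
      exact (isometryGroup F f).mul_mem a.2 ((isometryGroup F f).inv_mem b.2)
    have hc1 := sc_iso_one h2 S D hD c hcm
    have hab : a = b := by
      apply Subtype.ext
      have e1 : (a : GL ι F) = sc c * (t : GL ι F) := hc
      rw [e1, hc1, sc_one, one_mul, hbt]
    rw [hab]
    have := (mem_omega_iff f q S.hf hE b).1 hb
    exact (mem_E_iff h2 S D hD _).1 this
  · intro h
    have h3 := (mem_E_iff h2 S D hD _).2 h
    have h4 := (mem_omega_iff f q S.hf hE a).2 h3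
    rw [Inn_eq]
    exact ⟨_, PgoSim.Data.isoC_mem_omegaC h4, rfl⟩

/-- When a similarity induces an inner automorphism. -/
theorem co_inn_iff (g : CO f) (a : isometryGroup F f) (c : Fˣ) (h : (g : GL ι F) = sc c * (a : GL ι F)) :
    psiO f g ∈ Inn (POmega F f) ↔ D (isoOG f q S.hf a) = 1 := by
  have e : g = scO S c * PgoSim.Data.isoC a := Subtype.ext h
  have e2 : psiO f g = psiO f (PgoSim.Data.isoC a) := by
    rw [e, map_mul]
    have := dl_scO S c
    rw [show psiO f (scO S c) = dl (scO S c) from rfl, this, one_mul]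
  rw [e2]
  exact isoC_inn_iff h2 S D hD a

end main

/-! ### Base change of the criterion -/

section bc

variable {ι : Type} [Fintype ι] [DecidableEq ι] {F₀ : Type*} [Field F₀] [Fintype F₀] {j : F₀ →+* F} {σ : F ≃+* F}
  {f₀ : (ι → F₀) → F₀} {f : (ι → F) → F} {q₀ : QuadraticForm F₀ (ι → F₀)} {q : QuadraticForm F (ι → F)}

/-- The parity homomorphism over the extension gives one over the subfield. -/
lemma D_ext_refl (h : Comp j q₀ q) (D : OG q →* ℤˣ) (hD : ∀ (o : OG q) (x : ι → F), IsRefl o x → D o = -1)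
    (o : OG q₀) (x : ι → F₀) (ho : IsRefl o x) : D.comp (extO h) o = -1 :=
  hD _ _ (isRefl_ext h ho)

/-- Inner automorphisms over the subfield and over the field, in characteristic two. -/
theorem inn_iff_of_bc (h2₀ : Even (Fintype.card F₀)) (h2 : Even (Fintype.card F)) (B : BC j σ f₀ f q₀ q)
    (D : OG q →* ℤˣ) (hD : ∀ (o : OG q) (x : ι → F), IsRefl o x → D o = -1) (g : CO f₀) :
    psiO f₀ g ∈ Inn (POmega F₀ f₀) ↔ psiO f (mapB B g) ∈ Inn (POmega F f) := by
  obtain ⟨a, c, hac⟩ := exists_iso_two (q := q₀) h2₀ B.S₀ (D.comp (extO B.comp)) (D_ext_refl B.comp D hD) g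
  have hf₀ : ∀ v, f₀ v = q₀ v := B.S₀.hf
  have hf : ∀ v, f v = q v := B.S.hf
  have hiso : glJ j (a : GL ι F₀) ∈ isometryGroup F f := by
    rw [GammaCount.mem_iso_iff]
    intro v
    rw [hf, hf]
    refine isom_glJ B.comp ?_ v
    intro w
    rw [← hf₀, ← hf₀]
    exact (GammaCount.mem_iso_iff f₀ _).1 a.2 w
  rw [co_inn_iff h2₀ B.S₀ (D.comp (extO B.comp)) (D_ext_refl B.comp D hD) g a c hac]
  have e1 : ((mapB B g : CO f) : GL ι F) = sc (Units.map (j : F₀ →* F) c) * ((⟨_, hiso⟩ : isometryGroup F f) : GL ι F) := by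
    rw [mapB_coe, hac, map_mul]
    congr 1
    apply Units.ext
    ext s t
    simp [sc_coe, Matrix.scalar_apply, Matrix.diagonal_apply]
    split_ifs <;> simp
  rw [co_inn_iff h2 B.S D hD _ ⟨_, hiso⟩ _ e1]
  -- the two elements of the orthogonal group agree
  have e2 : extO B.comp (isoOG f₀ q₀ hf₀ a) = isoOG f q hf ⟨_, hiso⟩ := by
    apply OG_ext
    intro v
    have e3 : ∀ w, ((extO B.comp (isoOG f₀ q₀ hf₀ a) : OG q) : (ι → F) ≃ₗ[F] (ι → F)) w = (glJ j (a : GL ι F₀) : GL ι F).1 *ᵥ w := by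
      intro w
      apply congrFun (congrArg DFunLike.coe (lin_eq_on_map j
        (((extO B.comp (isoOG f₀ q₀ hf₀ a) : OG q) : (ι → F) ≃ₗ[F] (ι → F)) : (ι → F) →ₗ[F] (ι → F))
        (Matrix.toLin' (glJ j (a : GL ι F₀) : GL ι F).1) ?_)) w
      intro y
      change ((extO B.comp (isoOG f₀ q₀ hf₀ a) : OG q) : (ι → F) ≃ₗ[F] (ι → F)) (mapV j y) = (glJ j (a : GL ι F₀) : GL ι F).1 *ᵥ mapV j y
      rw [extO_apply, isoOG_apply, mapV_glJ]
    rw [e3, isoOG_apply]
  change D (extO B.comp _) = 1 ↔ _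
  rw [e2]

end bc

/-! ### The predicate in terms of the parity -/

section pres

variable {K : Type*} [Field K] [Fintype K] {ι : Type} [Fintype ι] [DecidableEq ι]
  {f : (ι → K) → K} {Q : QuadraticForm K (ι → K)} {J : Type*} [Fintype J] [DecidableEq J] [Nonempty J] {u w : J → (ι → K)}

lemma imageSubmodule_smul (M : Matrix ι ι K) {l : K} (hl : l ≠ 0) (U : Submodule K (ι → K)) :
    imageSubmodule (l • M) U = imageSubmodule M U := by
  unfold imageSubmodule
  rw [map_smul]
  exact Submodule.map_smul _ _ _ hl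

lemma preserves_smul (M : Matrix ι ι K) {l : K} (hl : l ≠ 0) :
    PreservesSingularClasses f (l • M) ↔ PreservesSingularClasses f M := by
  constructor
  · intro h U hU
    have h1 := h U hU
    rwa [SameParityClass, imageSubmodule_smul M hl] at h1
  · intro h U hU
    rw [SameParityClass, imageSubmodule_smul M hl]
    exact h U hU

theorem preserves_iff_dk (hf : ∀ v, f v = Q v) (hQ : Nondeg Q) (H : HypData Q u w) (a : isometryGroup K f) :
    PreservesSingularClasses f ((a : GL ι K) : Matrix ι ι K) ↔ dk H hQ (isoOG f Q hf a) = 1 := by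
  have hmax : ∀ U, IsMaxTotallySingular f U ↔ MaxTS Q U := by
    intro U
    have hts : ∀ W : Submodule K (ι → K), Geo.IsTotallySingularQuad f W ↔ TS Q W := by
      intro W
      constructor
      · intro h x hx
        rw [← hf]
        exact h x hx
      · intro h x hx
        rw [hf]
        exact h x hx
    constructor
    · rintro ⟨h1, h2⟩
      exact ⟨(hts U).1 h1, fun W hW hle => h2 W ((hts W).2 hW) hle⟩
    · rintro ⟨h1, h2⟩
      exact ⟨(hts U).2 h1, fun W hW hle => h2 W ((hts W).1 hW) hle⟩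
  have himg : ∀ U : Submodule K (ι → K), imageSubmodule ((a : GL ι K) : Matrix ι ι K) U =
      U.map (((isoOG f Q hf a : OG Q) : (ι → K) ≃ₗ[K] (ι → K)) : (ι → K) →ₗ[K] (ι → K)) := by
    intro U
    rfl
  constructor
  · intro h
    have h1 := h H.U₀ ((hmax _).2 H.maxTS)
    rw [SameParityClass, himg] at h1
    exact (even_iff_dk H hQ _ H.maxTS).1 h1
  · intro h U hU
    have h1 := (even_iff_dk H hQ _ ((hmax U).1 hU)).2 h
    rw [SameParityClass, himg]
    exact h1

end pres

/-! ### Roots of the binary form -/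

section root

open Polynomial

/-- An anisotropic binary form has a zero in every quadratic extension. -/
theorem exists_root_of_finrank {K : Type*} [Field K] [Fintype K] [Algebra F K] (hfin : Module.finrank F K = 2) (a b : F)
    (hab : ∀ z₁ z₂ : F, z₁ ^ 2 + a * z₁ * z₂ + b * z₂ ^ 2 = 0 → z₁ = 0 ∧ z₂ = 0) :
    ∃ r : K, r ^ 2 + algebraMap F K a * r + algebraMap F K b = 0 := by
  classical
  set q := Fintype.card F with hq
  have hKc : Fintype.card K = q ^ 2 := by
    rw [Module.card_eq_pow_finrank (K := F) (V := K), hfin]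
  obtain ⟨L, _, _, _, θ, hL, hD⟩ := Cfsg.Agent.Lib.QuadExt.exists_data (q := q) rfl a b hab
  set P : F[X] := X ^ 2 + C a * X + C b with hP
  have hdeg : P.natDegree = 2 := by
    rw [hP]
    compute_degree!
  have hmon : P.Monic := by
    rw [hP]
    monicity!
  have hirr : Irreducible P := by
    apply irreducible_of_degree_le_three_of_not_isRoot
    · rw [hdeg]; simp
    · intro x hx
      have := hab x 1 (by
        simpa [hP, IsRoot] using hx)
      exact one_ne_zero this.2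
  have hθ : aeval θ P = 0 := by
    rw [hP]
    simpa using hD.root
  have hmin : P = minpoly F θ := minpoly.eq_of_irreducible_of_monic hirr hθ hmon
  have hq2 : 1 < q ^ 2 := by
    have : 1 < q := Fintype.one_lt_card
    nlinarith
  have hdvd : P ∣ (X ^ (q ^ 2) - X : F[X]) := by
    rw [hmin]
    apply minpoly.dvd
    have h1 : θ ^ (q ^ 2) = θ := by
      rw [← hL]
      exact FiniteField.pow_card θ
    simp [h1]
  obtain ⟨R, hR⟩ := hdvd
  have hne : (X ^ (q ^ 2) - X : F[X]) ≠ 0 := FiniteField.X_pow_card_sub_X_ne_zero F hq2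
  have hR0 : R ≠ 0 := by
    rintro rfl
    rw [mul_zero] at hR
    exact hne hR
  have hRdeg : R.natDegree + 2 = q ^ 2 := by
    have h1 := congrArg natDegree hR
    rw [FiniteField.X_pow_card_sub_X_natDegree_eq F hq2, natDegree_mul hmon.ne_zero hR0, hdeg] at h1
    omega
  set R' : K[X] := R.map (algebraMap F K) with hR'
  have hR'0 : R' ≠ 0 := (Polynomial.map_ne_zero_iff (algebraMap F K).injective).2 hR0
  have hcard : (R'.roots.toFinset).card < (Finset.univ : Finset K).card := by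
    calc (R'.roots.toFinset).card ≤ Multiset.card R'.roots := Multiset.toFinset_card_le _
      _ ≤ R'.natDegree := card_roots' R'
      _ = R.natDegree := natDegree_map _
      _ < q ^ 2 := by omega
      _ = _ := by rw [Finset.card_univ, hKc]
  obtain ⟨z, -, hz⟩ := Finset.exists_mem_notMem_of_card_lt_card hcard
  have hz2 : R'.eval z ≠ 0 := by
    intro h0
    apply hz
    rw [Multiset.mem_toFinset, mem_roots hR'0]
    exact h0
  refine ⟨z, ?_⟩
  have h3 : (aeval z (X ^ (q ^ 2) - X : F[X])) = aeval z P * aeval z R := by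
    rw [hR, map_mul]
  have h4 : aeval z (X ^ (q ^ 2) - X : F[X]) = 0 := by
    have h5 : z ^ (q ^ 2) = z := by
      rw [← hKc]
      exact FiniteField.pow_card z
    simp [h5]
  rw [h4] at h3
  have h6 : aeval z R ≠ 0 := by
    rw [aeval_def, ← eval_map]
    exact hz2
  have h7 := (mul_eq_zero.1 h3.symm).resolve_right h6
  rw [hP] at h7
  simpa using h7

end root

/-! ### The two families -/

section fam

lemma sys_plus (n : ℕ) : Sys (quadFormPlus (n + 3) F) (qPlus (n + 3) F) :=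
  ⟨fun v => (qPlus_apply _ v).symm, nondeg_qPlus _, genR_qPlus _, framePlus n⟩

lemma sys_minus (a b : F) (hab : ∀ z₁ z₂ : F, z₁ ^ 2 + a * z₁ * z₂ + b * z₂ ^ 2 = 0 → z₁ = 0 ∧ z₂ = 0) (n : ℕ) :
    Sys (quadFormMinus (n + 2) F a b) (qMinus (n + 2) a b) :=
  ⟨fun v => (qMinus_apply _ _ _ v).symm, nondeg_qMinus a b hab _, genR_qMinus a b hab _, frameMinus a b hab n⟩

/-- The same element of the orthogonal group. -/
lemma extO_isoOG {ι : Type} [Fintype ι] [DecidableEq ι] {F₀ : Type*} [Field F₀] {j : F₀ →+* F}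
    {f₀ : (ι → F₀) → F₀} {f : (ι → F) → F} {q₀ : QuadraticForm F₀ (ι → F₀)} {q : QuadraticForm F (ι → F)}
    (h : Comp j q₀ q) (hf₀ : ∀ v, f₀ v = q₀ v) (hf : ∀ v, f v = q v) (a : isometryGroup F₀ f₀)
    (hiso : glJ j (a : GL ι F₀) ∈ isometryGroup F f) :
    extO h (isoOG f₀ q₀ hf₀ a) = isoOG f q hf ⟨_, hiso⟩ := by
  apply OG_ext
  intro v
  have e3 : ∀ w, ((extO h (isoOG f₀ q₀ hf₀ a) : OG q) : (ι → F) ≃ₗ[F] (ι → F)) w = (glJ j (a : GL ι F₀) : GL ι F).1 *ᵥ w := by
    intro w
    apply congrFun (congrArg DFunLike.coe (lin_eq_on_map j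
      (((extO h (isoOG f₀ q₀ hf₀ a) : OG q) : (ι → F) ≃ₗ[F] (ι → F)) : (ι → F) →ₗ[F] (ι → F))
      (Matrix.toLin' (glJ j (a : GL ι F₀) : GL ι F).1) ?_)) w
    intro y
    change ((extO h (isoOG f₀ q₀ hf₀ a) : OG q) : (ι → F) ≃ₗ[F] (ι → F)) (mapV j y) = (glJ j (a : GL ι F₀) : GL ι F).1 *ᵥ mapV j y
    rw [extO_apply, isoOG_apply, mapV_glJ]
  rw [e3, isoOG_apply]

lemma mem_iso_glJ {ι : Type} [Fintype ι] [DecidableEq ι] {F₀ : Type*} [Field F₀] {j : F₀ →+* F}
    {f₀ : (ι → F₀) → F₀} {f : (ι → F) → F} {q₀ : QuadraticForm F₀ (ι → F₀)} {q : QuadraticForm F (ι → F)}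
    (h : Comp j q₀ q) (hf₀ : ∀ v, f₀ v = q₀ v) (hf : ∀ v, f v = q v) (a : isometryGroup F₀ f₀) :
    glJ j (a : GL ι F₀) ∈ isometryGroup F f := by
  rw [GammaCount.mem_iso_iff]
  intro v
  rw [hf, hf]
  refine isom_glJ h ?_ v
  intro w
  rw [← hf₀, ← hf₀]
  exact (GammaCount.mem_iso_iff f₀ _).1 a.2 w

lemma sc_mul_val {ι : Type} [Fintype ι] [DecidableEq ι] {K : Type*} [Field K] (c : Kˣ) (a : GL ι K) :
    ((sc c * a : GL ι K) : Matrix ι ι K) = (c : K) • (a : Matrix ι ι K) := by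
  rw [Units.val_mul, sc_coe]
  ext i t
  simp [Matrix.scalar_apply, Matrix.diagonal_mul]

theorem inndiag_plus_two (h2 : Even (Fintype.card F)) (n : ℕ) :
    inndiagPOmegaPlus (n + 3) F = Inn (POmega F (quadFormPlus (n + 3) F)) := by
  have S := sys_plus (F := F) n
  have H := hypData_plus (K := F) (n + 3)
  have hQ := S.hQ
  have hkey : ∀ g : CO (quadFormPlus (n + 3) F),
      PreservesSingularClasses (quadFormPlus (n + 3) F) (((g : GL (Fin (n + 3) ⊕ Fin (n + 3)) F)) : Matrix (Fin (n + 3) ⊕ Fin (n + 3)) (Fin (n + 3) ⊕ Fin (n + 3)) F)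
        ↔ psiO (quadFormPlus (n + 3) F) g ∈ Inn (POmega F (quadFormPlus (n + 3) F)) := by
    intro g
    obtain ⟨a, c, hac⟩ := exists_iso_two h2 S (dk H hQ) (fun o x ho => dk_refl H hQ ho) g
    rw [co_inn_iff h2 S (dk H hQ) (fun o x ho => dk_refl H hQ ho) g a c hac, hac, sc_mul_val, preserves_smul _ c.ne_zero]
    exact preserves_iff_dk S.hf hQ H a
  have h1 : inndiagPOmegaPlus (n + 3) F = ((Inn (POmega F (quadFormPlus (n + 3) F))).comap (psiO (quadFormPlus (n + 3) F))).map (psiO (quadFormPlus (n + 3) F)) := by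
    apply autSubgroupOf_eq
    intro β
    constructor
    · rintro ⟨g, hg, hP, hI⟩
      exact ⟨⟨g, hg⟩, (hkey ⟨g, hg⟩).1 hP, (PgoPsi.induced_iff _ ⟨g, hg⟩ β).1 hI⟩
    · rintro ⟨g, hg, rfl⟩
      exact ⟨g, g.2, (hkey g).2 hg, (PgoPsi.induced_iff _ g _).2 rfl⟩
  rw [h1]
  apply le_antisymm
  · rintro _ ⟨g, hg, rfl⟩
    exact hg
  · intro β hβ
    have hβ' := hβ
    rw [Inn_eq] at hβ'
    obtain ⟨t, -, rfl⟩ := hβ'
    exact ⟨t, hβ, rfl⟩

/-- The discriminant in characteristic two. -/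
lemma disc_ne_two (h2 : Even (Fintype.card F)) (a b : F)
    (hab : ∀ z₁ z₂ : F, z₁ ^ 2 + a * z₁ * z₂ + b * z₂ ^ 2 = 0 → z₁ = 0 ∧ z₂ = 0) : 4 * b - a ^ 2 ≠ 0 := by
  have h20 := two_eq_zero_of_even h2
  have h40 : (4 : F) = 0 := by linear_combination 2 * h20
  rw [h40, zero_mul, zero_sub, neg_ne_zero]
  intro h
  have ha : a = 0 := pow_eq_zero_iff (two_ne_zero) |>.1 h
  obtain ⟨d, hd⟩ := FiniteField.isSquare_of_char_two (ringChar_two h2) b
  have h3 := hab d 1 (by
    rw [ha, hd]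
    linear_combination d ^ 2 * h20)
  exact one_ne_zero h3.2

/-- Nondegeneracy from the discriminant. -/
lemma nondeg_disc {K : Type*} [Field K] [Fintype K] (m : ℕ) {a b : K} (hd : 4 * b - a ^ 2 ≠ 0) : Nondeg (qMinus m a b) := by
  intro x hx
  by_contra hall
  push Not at hall
  apply hx
  have h1 : ∀ i, x (.inl (.inl i)) = 0 := by
    intro i
    have := hall (Pi.single (.inl (.inr i)) 1)
    rw [polar_qMinus] at this
    simpa [Pi.single_apply] using this
  have h2' : ∀ i, x (.inl (.inr i)) = 0 := by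
    intro i
    have := hall (Pi.single (.inl (.inl i)) 1)
    rw [polar_qMinus] at this
    simpa [Pi.single_apply] using this
  have h3 := hall (zvec m 1 0)
  have h4 := hall (zvec m 0 1)
  rw [polar_qMinus] at h3 h4
  simp at h3 h4
  have h5 : (4 * b - a ^ 2) * x (.inr 1) = 0 := by
    linear_combination 2 * h4 - a * h3
  have h6 : (4 * b - a ^ 2) * x (.inr 0) = 0 := by
    linear_combination 2 * b * h3 - a * h4
  have h7 := (mul_eq_zero.1 h5).resolve_left hd
  have h8 := (mul_eq_zero.1 h6).resolve_left hd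
  ext (i | i)
  · rcases i with i | i
    · exact h1 i
    · exact h2' i
  · fin_cases i
    · exact h8
    · exact h7

/-- The extension of the minus form. -/
lemma comp_minus {K : Type*} [Field K] [Fintype K] [Algebra F K] (m : ℕ) (a b : F) :
    Comp (algebraMap F K) (qMinus m a b) (qMinus m (algebraMap F K a) (algebraMap F K b)) :=
  ⟨fun v => Q_map a b v⟩

section core

variable (h2 : Even (Fintype.card F)) (a b : F)
    (hab : ∀ z₁ z₂ : F, z₁ ^ 2 + a * z₁ * z₂ + b * z₂ ^ 2 = 0 → z₁ = 0 ∧ z₂ = 0)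
    {K : Type*} [Field K] [Fintype K] [Algebra F K] (hfin : Module.finrank F K = 2) (n : ℕ)

include h2 hab hfin

/-- The minus form over a quadratic extension has a hyperbolic basis, and so a parity. -/
lemma exists_D_of_ext : ∃ D : OG (qMinus (n + 2) a b) →* ℤˣ, (∀ (o : OG (qMinus (n + 2) a b)) x, IsRefl o x → D o = -1) ∧
      ∀ g : CO (quadFormMinus (n + 2) F a b), ∀ (s : isometryGroup F (quadFormMinus (n + 2) F a b)) (c : Fˣ),
        (g : GL (Ix (n + 2)) F) = sc c * (s : GL (Ix (n + 2)) F) →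
        (PreservesSingularClasses (quadFormMinus (n + 2) K (algebraMap F K a) (algebraMap F K b)) (((g : GL (Ix (n + 2)) F) : Matrix (Ix (n + 2)) (Ix (n + 2)) F).map (algebraMap F K))
          ↔ D (isoOG _ (qMinus (n + 2) a b) (fun v => (qMinus_apply _ _ _ v).symm) s) = 1) := by
  obtain ⟨r, hr⟩ := exists_root_of_finrank hfin a b hab
  have hd : 4 * algebraMap F K b - algebraMap F K a ^ 2 ≠ 0 := by
    have := disc_ne_two h2 a b hab
    intro h
    apply this
    apply (algebraMap F K).injective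
    rw [map_zero, ← h]
    simp [map_ofNat]
  have hQK := nondeg_disc (n + 2) hd
  have H := hypData_minus (n + 2) hr hd
  have hcomp := comp_minus (K := K) (n + 2) a b
  refine ⟨(dk H hQK).comp (extO hcomp), ?_, ?_⟩
  · intro o x ho
    exact dk_refl H hQK (isRefl_ext hcomp ho)
  · intro g s c hgs
    have hiso := mem_iso_glJ (f₀ := quadFormMinus (n + 2) F a b) (f := quadFormMinus (n + 2) K (algebraMap F K a) (algebraMap F K b)) hcomp
      (fun v => (qMinus_apply _ _ _ v).symm) (fun v => (qMinus_apply _ _ _ v).symm) s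
    have e1 : ((g : GL (Ix (n + 2)) F) : Matrix (Ix (n + 2)) (Ix (n + 2)) F).map (algebraMap F K) = algebraMap F K c • (glJ (algebraMap F K) (s : GL (Ix (n + 2)) F) : GL (Ix (n + 2)) K).1 := by
      rw [hgs, sc_mul_val]
      ext i t
      simp [Matrix.map_apply]
    rw [e1, preserves_smul _ ((map_ne_zero _).2 c.ne_zero)]
    rw [MonoidHom.comp_apply, extO_isoOG hcomp _ (fun v => (qMinus_apply _ _ _ v).symm) s hiso]
    exact preserves_iff_dk (fun v => (qMinus_apply _ _ _ v).symm) hQK H ⟨_, hiso⟩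

end core

/-- The parity on the minus form. -/
lemma exists_D_minus (h2 : Even (Fintype.card F)) (a b : F)
    (hab : ∀ z₁ z₂ : F, z₁ ^ 2 + a * z₁ * z₂ + b * z₂ ^ 2 = 0 → z₁ = 0 ∧ z₂ = 0) (n : ℕ) :
    ∃ D : OG (qMinus (n + 2) a b) →* ℤˣ, ∀ (o : OG (qMinus (n + 2) a b)) x, IsRefl o x → D o = -1 := by
  obtain ⟨K, _, _, _, θ, hK, -⟩ := Cfsg.Agent.Lib.QuadExt.exists_data (q := Fintype.card F) rfl a b hab
  have hfin : Module.finrank F K = 2 := by
    have h3 := Module.card_eq_pow_finrank (K := F) (V := K)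
    rw [hK] at h3
    exact (Nat.pow_right_injective (Fintype.one_lt_card)).eq_iff.1 h3.symm
  obtain ⟨D, hD, -⟩ := exists_D_of_ext h2 a b hab hfin n
  exact ⟨D, hD⟩

/-- The parity on the plus form. -/
lemma exists_D_plus (n : ℕ) :
    ∃ D : OG (qPlus (n + 3) F) →* ℤˣ, ∀ (o : OG (qPlus (n + 3) F)) x, IsRefl o x → D o = -1 := by
  have H := hypData_plus (K := F) (n + 3)
  exact ⟨dk H (nondeg_qPlus _), fun o x ho => dk_refl H (nondeg_qPlus _) ho⟩

universe u

theorem inndiag_minus_two {F : Type u} [Field F] [Fintype F] (h2 : Even (Fintype.card F)) (a b : F)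
    (hab : ∀ z₁ z₂ : F, z₁ ^ 2 + a * z₁ * z₂ + b * z₂ ^ 2 = 0 → z₁ = 0 ∧ z₂ = 0) (n : ℕ) :
    inndiagPOmegaMinus (n + 2) F a b = Inn (POmega F (quadFormMinus (n + 2) F a b)) := by
  have S := sys_minus a b hab n
  have hkey : ∀ g : CO (quadFormMinus (n + 2) F a b),
      PreservesSingularClassesMinus (n + 2) a b ((g : GL (Ix (n + 2)) F) : Matrix (Ix (n + 2)) (Ix (n + 2)) F)
        ↔ psiO (quadFormMinus (n + 2) F a b) g ∈ Inn (POmega F (quadFormMinus (n + 2) F a b)) := by
    intro g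
    constructor
    · rintro ⟨K, _, _, hfin, h⟩
      have : Module.Finite F K := Module.finite_of_finrank_pos (by omega)
      have : Finite K := Module.finite_of_finite F
      have : Fintype K := Fintype.ofFinite K
      obtain ⟨D, hD, hP⟩ := exists_D_of_ext h2 a b hab hfin n
      obtain ⟨s, c, hgs⟩ := exists_iso_two h2 S D hD g
      rw [co_inn_iff h2 S D hD g s c hgs]
      exact (hP g s c hgs).1 h
    · intro h
      obtain ⟨K, _, _, _, θ, hK, -⟩ := Cfsg.Agent.Lib.QuadExt.exists_data (q := Fintype.card F) rfl a b hab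
      have hfin : Module.finrank F K = 2 := by
        have h3 := Module.card_eq_pow_finrank (K := F) (V := K)
        rw [hK] at h3
        exact (Nat.pow_right_injective (Fintype.one_lt_card)).eq_iff.1 h3.symm
      obtain ⟨D, hD, hP⟩ := exists_D_of_ext h2 a b hab hfin n
      obtain ⟨s, c, hgs⟩ := exists_iso_two h2 S D hD g
      refine ⟨K, inferInstance, inferInstance, hfin, ?_⟩
      rw [co_inn_iff h2 S D hD g s c hgs] at h
      exact (hP g s c hgs).2 h
  have h1 : inndiagPOmegaMinus (n + 2) F a b = ((Inn (POmega F (quadFormMinus (n + 2) F a b))).comap (psiO (quadFormMinus (n + 2) F a b))).map (psiO (quadFormMinus (n + 2) F a b)) := by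
    apply autSubgroupOf_eq
    intro β
    constructor
    · rintro ⟨g, hg, hP, hI⟩
      exact ⟨⟨g, hg⟩, (hkey ⟨g, hg⟩).1 hP, (PgoPsi.induced_iff _ ⟨g, hg⟩ β).1 hI⟩
    · rintro ⟨g, hg, rfl⟩
      exact ⟨g, g.2, (hkey g).2 hg, (PgoPsi.induced_iff _ g _).2 rfl⟩
  rw [h1]
  apply le_antisymm
  · rintro _ ⟨g, hg, rfl⟩
    exact hg
  · intro β hβ
    have hβ' := hβ
    rw [Inn_eq] at hβ'
    obtain ⟨t, -, rfl⟩ := hβ'
    exact ⟨t, hβ, rfl⟩

end fam

end Cfsg.Agent.Lib.FieldPOm
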